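import Mathlib
import Cfsg.Prelude.Def_BaumannBlocks
import Cfsg.Agent.Lib.Helper50.ChermakDelgado
import Cfsg.Agent.Lib.Helper50.CentrallyLarge
import Cfsg.Agent.Lib.Helper50.LargeAbelian
import Cfsg.Agent.Lib.Helper50.MinimalCL

/-!
# Conjugation, Chermak–Delgado lattice and large abelian subgroups: basic tools

Helper lemmas for Glauberman's theorem that some minimal centrally large subgroup is normalized by
the Thompson subgroup.
-/

set_option autoImplicit false
open scoped Pointwise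
open scoped commutatorElement

namespace Cfsg.Agent.Lib.Helper48

open Cfsg.Agent.Lib.Helper50

variable {P : Type*} [Group P]

/-- The conjugate `g E g⁻¹` of a subgroup. -/
def clnConj (g : P) (E : Subgroup P) : Subgroup P := E.map (MulAut.conj g).toMonoidHom

theorem mem_clnConj {g x : P} {E : Subgroup P} : x ∈ clnConj g E ↔ g⁻¹ * x * g ∈ E := by
  unfold clnConj
  constructor
  · rintro ⟨y, hy, rfl⟩
    have : g⁻¹ * ((MulAut.conj g).toMonoidHom y) * g = y := by simp [mul_assoc]
    rw [this]; exact hy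
  · intro h
    exact ⟨g⁻¹ * x * g, h, by simp [mul_assoc]⟩

theorem conj_mem_clnConj {g x : P} {E : Subgroup P} (hx : x ∈ E) : g * x * g⁻¹ ∈ clnConj g E := by
  rw [mem_clnConj]
  have : g⁻¹ * (g * x * g⁻¹) * g = x := by group
  rw [this]; exact hx

theorem clnConj_one (E : Subgroup P) : clnConj 1 E = E := by
  ext x; rw [mem_clnConj]; simp

theorem clnConj_mul (g h : P) (E : Subgroup P) : clnConj g (clnConj h E) = clnConj (g * h) E := by
  ext x
  rw [mem_clnConj, mem_clnConj, mem_clnConj]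
  have : h⁻¹ * (g⁻¹ * x * g) * h = (g * h)⁻¹ * x * (g * h) := by group
  rw [this]

theorem clnConj_mono (g : P) {E F : Subgroup P} (h : E ≤ F) : clnConj g E ≤ clnConj g F := by
  intro x hx
  rw [mem_clnConj] at hx ⊢
  exact h hx

theorem clnConj_eq_of_mem_normalizer {g : P} {E : Subgroup P}
    (hg : g ∈ Subgroup.normalizer (E : Set P)) : clnConj g E = E := by
  ext x
  rw [mem_clnConj]
  have h1 := (Subgroup.mem_normalizer_iff.mp hg) (g⁻¹ * x * g)
  have h2 : g * (g⁻¹ * x * g) * g⁻¹ = x := by group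
  rw [h2] at h1
  exact h1

theorem mem_normalizer_of_clnConj_le {g : P} {E : Subgroup P}
    (h1 : clnConj g E ≤ E) (h2 : clnConj g⁻¹ E ≤ E) : g ∈ Subgroup.normalizer (E : Set P) := by
  rw [Subgroup.mem_normalizer_iff]
  intro x
  constructor
  · intro hx
    exact h1 (conj_mem_clnConj hx)
  · intro hx
    have := h2 (conj_mem_clnConj (g := g⁻¹) hx)
    have h3 : g⁻¹ * (g * x * g⁻¹) * g⁻¹⁻¹ = x := by group
    rwa [h3] at this

theorem cln_le_normalizer {E L : Subgroup P} (h : ∀ g ∈ L, ∀ x ∈ E, g * x * g⁻¹ ∈ E) :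
    L ≤ Subgroup.normalizer (E : Set P) := by
  intro g hg
  apply mem_normalizer_of_clnConj_le
  · intro x hx
    rw [mem_clnConj] at hx
    have := h g hg _ hx
    have h3 : g * (g⁻¹ * x * g) * g⁻¹ = x := by group
    rwa [h3] at this
  · intro x hx
    rw [mem_clnConj] at hx
    have := h g⁻¹ (L.inv_mem hg) _ hx
    have h3 : g⁻¹ * (g⁻¹⁻¹ * x * g⁻¹) * g⁻¹⁻¹ = x := by group
    rwa [h3] at this

theorem cln_conj_mem_of_le_normalizer {E L : Subgroup P}
    (h : L ≤ Subgroup.normalizer (E : Set P)) {g x : P} (hg : g ∈ L) (hx : x ∈ E) :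
    g * x * g⁻¹ ∈ E :=
  (Subgroup.mem_normalizer_iff.mp (h hg) x).mp hx

theorem cln_conj_mem_of_le_normalizer' {E L : Subgroup P}
    (h : L ≤ Subgroup.normalizer (E : Set P)) {g x : P} (hg : g ∈ L) (hx : x ∈ E) :
    g⁻¹ * x * g ∈ E := by
  have := cln_conj_mem_of_le_normalizer h (L.inv_mem hg) hx
  rwa [inv_inv] at this

/-- The centralizer of a conjugate is the conjugate of the centralizer. -/
theorem centralizer_clnConj (g : P) (E : Subgroup P) :
    Subgroup.centralizer ((clnConj g E : Subgroup P) : Set P)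
      = clnConj g (Subgroup.centralizer (E : Set P)) := by
  ext x
  rw [mem_clnConj, Subgroup.mem_centralizer_iff, Subgroup.mem_centralizer_iff]
  constructor
  · intro h y hy
    have h1 := h (g * y * g⁻¹) (conj_mem_clnConj hy)
    have h2 : y * (g⁻¹ * x * g) = g⁻¹ * ((g * y * g⁻¹) * x) * g := by group
    rw [h2, h1]; group
  · intro h y hy
    have hy' : g⁻¹ * y * g ∈ E := mem_clnConj.mp hy
    have h1 := h _ hy'
    have h2 : y * x = g * ((g⁻¹ * y * g) * (g⁻¹ * x * g)) * g⁻¹ := by group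
    rw [h2, h1]; group

theorem card_clnConj (g : P) (E : Subgroup P) : Nat.card ↥(clnConj g E) = Nat.card ↥E := by
  unfold clnConj
  exact (Nat.card_congr (Subgroup.equivMapOfInjective E (MulAut.conj g).toMonoidHom
    (MulAut.conj g).injective).toEquiv).symm

theorem normalizer_le_normalizer_centralizer' {E L : Subgroup P}
    (h : L ≤ Subgroup.normalizer (E : Set P)) :
    L ≤ Subgroup.normalizer ((Subgroup.centralizer (E : Set P) : Subgroup P) : Set P) := by
  apply cln_le_normalizer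
  intro g hg x hx
  rw [Subgroup.mem_centralizer_iff] at hx ⊢
  intro y hy
  have hy' : g⁻¹ * y * g ∈ E := cln_conj_mem_of_le_normalizer' h hg hy
  have h1 := hx _ hy'
  have h2 : y * (g * x * g⁻¹) = g * ((g⁻¹ * y * g) * x) * g⁻¹ := by group
  rw [h2, h1]; group

/-- A subgroup stabilizing a family of subgroups normalizes its join. -/
theorem cln_le_normalizer_sSup (ℱ : Set (Subgroup P)) (L : Subgroup P)
    (h : ∀ g ∈ L, ∀ E ∈ ℱ, clnConj g E ∈ ℱ) :
    L ≤ Subgroup.normalizer ((sSup ℱ : Subgroup P) : Set P) := by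
  apply cln_le_normalizer
  intro g hg x hx
  have hle : sSup ℱ ≤ (sSup ℱ).comap (MulAut.conj g).toMonoidHom := by
    apply sSup_le
    intro E hE y hy
    rw [Subgroup.mem_comap]
    have h1 : clnConj g E ≤ sSup ℱ := le_sSup (h g hg E hE)
    exact h1 (conj_mem_clnConj hy)
  have := hle hx
  rw [Subgroup.mem_comap] at this
  simpa using this

/-- A subgroup stabilizing a family of subgroups normalizes its intersection. -/
theorem cln_le_normalizer_sInf (ℱ : Set (Subgroup P)) (L : Subgroup P)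
    (h : ∀ g ∈ L, ∀ E ∈ ℱ, clnConj g E ∈ ℱ) :
    L ≤ Subgroup.normalizer ((sInf ℱ : Subgroup P) : Set P) := by
  apply cln_le_normalizer
  intro g hg x hx
  rw [Subgroup.mem_sInf] at hx ⊢
  intro E hE
  have h1 := hx _ (h g⁻¹ (L.inv_mem hg) E hE)
  rw [mem_clnConj] at h1
  rwa [inv_inv] at h1

section finite

variable [Finite P]

theorem isCentralizerLarge_clnConj (g : P) {R : Subgroup P} (hR : Cfsg.IsCentralizerLarge R) :
    Cfsg.IsCentralizerLarge (clnConj g R) := by
  unfold Cfsg.IsCentralizerLarge at hR ⊢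
  rw [centralizer_clnConj, card_clnConj, card_clnConj]
  exact hR

theorem isCentrallyLarge_clnConj (g : P) {R : Subgroup P} (hR : Cfsg.IsCentrallyLarge R) :
    Cfsg.IsCentrallyLarge (clnConj g R) := by
  obtain ⟨h1, h2⟩ := isCentralizerLarge_of_isCentrallyLarge R hR
  apply isCentrallyLarge_of_isCentralizerLarge _ (isCentralizerLarge_clnConj g h1)
  rw [centralizer_clnConj]
  exact clnConj_mono g h2

theorem maxAbelian_clnConj (g : P) {A : Subgroup P} (hA : A ∈ Cfsg.maxAbelianSubgroups P) :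
    clnConj g A ∈ Cfsg.maxAbelianSubgroups P := by
  obtain ⟨h1, h2⟩ := hA
  refine ⟨?_, ?_⟩
  · rw [← Subgroup.le_centralizer_iff_isMulCommutative, centralizer_clnConj]
    exact clnConj_mono g (Subgroup.le_centralizer_iff_isMulCommutative.mpr h1)
  · intro B hB
    rw [card_clnConj]
    exact h2 B hB

/-- The measure-largest subgroups are closed under nonempty intersections. -/
theorem isCentralizerLarge_sInf (S : Set (Subgroup P)) (hS : ∀ R ∈ S, Cfsg.IsCentralizerLarge R)
    (hne : S.Nonempty) : Cfsg.IsCentralizerLarge (sInf S) := by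
  have hfin : S.Finite := Set.toFinite S
  revert hS hne
  refine Set.Finite.induction_on (motive := fun S _ => (∀ R ∈ S, Cfsg.IsCentralizerLarge R) →
    S.Nonempty → Cfsg.IsCentralizerLarge (sInf S)) S hfin ?_ ?_
  · intro _ h
    exact absurd h Set.not_nonempty_empty
  · intro a T _ _ ih hS _
    rw [sInf_insert]
    by_cases hT : T.Nonempty
    · exact (chermak_delgado a (sInf T) (hS a (Set.mem_insert a T))
        (ih (fun R hR => hS R (Set.mem_insert_of_mem a hR)) hT)).2.2.1
    · rw [Set.not_nonempty_iff_eq_empty] at hT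
      rw [hT, sInf_empty, inf_top_eq]
      exact hS a (Set.mem_insert a T)

/-- Double centralizer of a measure-largest subgroup. -/
theorem cln_double_centralizer {R : Subgroup P} (hR : Cfsg.IsCentralizerLarge R) :
    Subgroup.centralizer ((Subgroup.centralizer (R : Set P) : Subgroup P) : Set P) = R :=
  ((chermak_delgado_centralizer R hR).2).symm

theorem cln_centralizer_large {R : Subgroup P} (hR : Cfsg.IsCentralizerLarge R) :
    Cfsg.IsCentralizerLarge (Subgroup.centralizer (R : Set P)) :=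
  (chermak_delgado_centralizer R hR).1

end finite

/-- The subgroup generated by the large abelian subgroups contained in `M`. -/
def clnJ (M : Subgroup P) : Subgroup P :=
  sSup {B | B ∈ Cfsg.maxAbelianSubgroups P ∧ B ≤ M}

theorem clnJ_le (M : Subgroup P) : clnJ M ≤ M :=
  sSup_le (fun _ hB => hB.2)

theorem le_clnJ {B M : Subgroup P} (hB : B ∈ Cfsg.maxAbelianSubgroups P) (hBM : B ≤ M) :
    B ≤ clnJ M :=
  le_sSup ⟨hB, hBM⟩

theorem clnJ_mono {M N : Subgroup P} (h : M ≤ N) : clnJ M ≤ clnJ N :=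
  sSup_le (fun _ hB => le_clnJ hB.1 (hB.2.trans h))

theorem clnJ_idem (M : Subgroup P) : clnJ (clnJ M) = clnJ M :=
  le_antisymm (clnJ_le _) (sSup_le (fun _ hB => le_clnJ hB.1 (le_clnJ hB.1 hB.2)))

theorem clnJ_bot : clnJ (⊥ : Subgroup P) = ⊥ :=
  le_antisymm (clnJ_le _) bot_le

theorem clnJ_top : clnJ (⊤ : Subgroup P) = Cfsg.thompsonSubgroupA P := by
  unfold clnJ Cfsg.thompsonSubgroupA
  congr 1
  ext B
  simp

theorem clnJ_normalizer [Finite P] {M L : Subgroup P}
    (h : L ≤ Subgroup.normalizer (M : Set P)) :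
    L ≤ Subgroup.normalizer ((clnJ M : Subgroup P) : Set P) := by
  apply cln_le_normalizer_sSup
  rintro g hg B ⟨hB, hBM⟩
  refine ⟨maxAbelian_clnConj g hB, ?_⟩
  have := clnConj_mono g hBM
  rwa [clnConj_eq_of_mem_normalizer (h hg)] at this

section nilpotent

variable [Group.IsNilpotent P]

/-- In a nilpotent group, if `M` normalizes `N₂` and `N₂ ≰ N₁`, some element of `N₂` outside `N₁`
is centralized by `M` modulo `N₁`. -/
theorem cln_exists_fixed (N₁ N₂ M : Subgroup P)
    (hM : M ≤ Subgroup.normalizer (N₂ : Set P)) (hne : ¬ N₂ ≤ N₁) :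
    ∃ x ∈ N₂, x ∉ N₁ ∧ ∀ m ∈ M, ⁅x, m⁆ ∈ N₁ := by
  by_contra hcon
  push Not at hcon
  have key : ∀ n : ℕ, ∃ x ∈ N₂, x ∈ (⊤ : Subgroup P).lowerCentralSeries n ∧ x ∉ N₁ := by
    intro n
    induction n with
    | zero =>
      obtain ⟨x, hx, hx'⟩ := SetLike.not_le_iff_exists.mp hne
      exact ⟨x, hx, by rw [Subgroup.lowerCentralSeries_zero]; exact Subgroup.mem_top x, hx'⟩
    | succ n ih =>
      obtain ⟨x, hx, hxn, hx'⟩ := ih
      obtain ⟨m, hm, hxm⟩ := hcon x hx hx'
      refine ⟨⁅x, m⁆, ?_, ?_, hxm⟩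
      · rw [commutatorElement_def]
        have h1 : m * x⁻¹ * m⁻¹ ∈ N₂ :=
          cln_conj_mem_of_le_normalizer hM hm (N₂.inv_mem hx)
        have h2 : x * m * x⁻¹ * m⁻¹ = x * (m * x⁻¹ * m⁻¹) := by group
        rw [h2]
        exact N₂.mul_mem hx h1
      · rw [Subgroup.lowerCentralSeries_succ]
        exact Subgroup.commutator_mem_commutator hxn (Subgroup.mem_top m)
  obtain ⟨n, hn⟩ := Subgroup.nilpotent_iff_lowerCentralSeries.mp (inferInstance : Group.IsNilpotent P)
  obtain ⟨x, _, hxn, hx'⟩ := key n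
  rw [hn, Subgroup.mem_bot] at hxn
  rw [hxn] at hx'
  exact hx' N₁.one_mem

/-- In a finite nilpotent group, a proper subgroup `L` of `G` lies in a proper subgroup of `G`
normalized by `G`. -/
theorem cln_exists_normal_proper [Finite P] (L G : Subgroup P) (hLG : L ≤ G) (hne : L ≠ G) :
    ∃ M : Subgroup P, L ≤ M ∧ M ≤ G ∧ M ≠ G ∧ G ≤ Subgroup.normalizer (M : Set P) := by
  have hfin : {M : Subgroup P | L ≤ M ∧ M ≤ G ∧ M ≠ G}.Finite := Set.toFinite _
  obtain ⟨M, ⟨hLM, hMG, hMne⟩, hmax⟩ := Set.exists_max_image _ (fun M : Subgroup P => Nat.card ↥M)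
    hfin ⟨L, le_refl L, hLG, hne⟩
  refine ⟨M, hLM, hMG, hMne, ?_⟩
  have hnle : ¬ G ≤ M := fun h => hMne (le_antisymm hMG h)
  obtain ⟨x, hxG, hxM, hx⟩ := cln_exists_fixed M G G Subgroup.le_normalizer hnle
  -- x normalizes M
  have hx1 : ∀ m ∈ M, x * m * x⁻¹ ∈ M := by
    intro m hm
    have h1 := hx m (hMG hm)
    rw [commutatorElement_def] at h1
    have h2 : x * m * x⁻¹ = x * m * x⁻¹ * m⁻¹ * m := by group
    rw [h2]
    exact M.mul_mem h1 hm
  have hx2 : ∀ m ∈ M, x⁻¹ * m * x ∈ M := by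
    intro m hm
    have hg : x⁻¹ * m * x ∈ G := G.mul_mem (G.mul_mem (G.inv_mem hxG) (hMG hm)) hxG
    have h1 := hx _ hg
    rw [commutatorElement_def] at h1
    have h2 : x * (x⁻¹ * m * x) * x⁻¹ * (x⁻¹ * m * x)⁻¹ = m * (x⁻¹ * m * x)⁻¹ := by group
    rw [h2] at h1
    have h3 : (x⁻¹ * m * x)⁻¹ ∈ M := by
      have := M.mul_mem (M.inv_mem hm) h1
      rwa [inv_mul_cancel_left] at this
    have := M.inv_mem h3
    rwa [inv_inv] at this
  have hxN : x ∈ Subgroup.normalizer (M : Set P) := by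
    rw [Subgroup.mem_normalizer_iff]
    intro m
    refine ⟨hx1 m, fun h => ?_⟩
    have := hx2 _ h
    have h2 : x⁻¹ * (x * m * x⁻¹) * x = m := by group
    rwa [h2] at this
  -- M ⊔ zpowers x = G by maximality
  have hM2 : M ⊔ Subgroup.zpowers x = G := by
    by_contra hne2
    have hle : M ⊔ Subgroup.zpowers x ≤ G := sup_le hMG (by rw [Subgroup.zpowers_le]; exact hxG)
    have h1 := hmax (M ⊔ Subgroup.zpowers x) ⟨hLM.trans le_sup_left, hle, hne2⟩
    have h2 : M = M ⊔ Subgroup.zpowers x := Subgroup.eq_of_le_of_card_ge le_sup_left h1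
    apply hxM
    rw [h2]
    exact (le_sup_right : Subgroup.zpowers x ≤ M ⊔ Subgroup.zpowers x) (Subgroup.mem_zpowers x)
  rw [← hM2]
  exact sup_le Subgroup.le_normalizer (by rw [Subgroup.zpowers_le]; exact hxN)

end nilpotent

end Cfsg.Agent.Lib.Helper48
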