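import Mathlib
import Cfsg.Agent.Lib.Helper48.CLNorm

/-!
# Glauberman: some minimal centrally large subgroup is normalized by `J(P)` and `P_MCL`
-/

set_option autoImplicit false
open scoped Pointwise
open scoped commutatorElement

namespace Cfsg.Agent.Lib.Helper48

open Cfsg.Agent.Lib.Helper50

variable {P : Type*} [Group P]

theorem cln_centralizer_anti {E F : Subgroup P} (h : E ≤ F) :
    Subgroup.centralizer (F : Set P) ≤ Subgroup.centralizer (E : Set P) :=
  Subgroup.centralizer_le (SetLike.coe_subset_coe.mpr h)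

/-- The counting lemma: `A ∩ V` is measure-largest. -/
theorem cln_inf_large [Finite P] (Q A U V : Subgroup P)
    (hQ : Cfsg.IsCentrallyLarge Q) (hA : A ∈ Cfsg.maxAbelianSubgroups P)
    (hV : Cfsg.IsCentralizerLarge V) (hU : U = Subgroup.centralizer (V : Set P))
    (hUQ : U ≤ Q) (hCQV : Subgroup.centralizer (Q : Set P) ≤ V)
    (hVle : V ≤ Q ⊔ A)
    (hVc : V ≤ Subgroup.centralizer ((Q ⊓ A : Subgroup P) : Set P)) :
    Cfsg.IsCentralizerLarge (A ⊓ V) := by
  obtain ⟨-, -, hB, hcent, hprod⟩ := centrallyLarge_sup_maxAbelian Q A hQ hA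
  have hAc : A ≤ Subgroup.centralizer (A : Set P) :=
    Subgroup.le_centralizer_iff_isMulCommutative.mpr hA.1
  -- (1)
  have h1 : Nat.card ↥V * Nat.card ↥(Subgroup.centralizer (Q : Set P) ⊓ A)
      ≤ Nat.card ↥(Subgroup.centralizer (Q : Set P)) * Nat.card ↥(A ⊓ V) := by
    have hsub : (V : Set P) ⊆ ((Subgroup.centralizer (Q : Set P) : Subgroup P) : Set P)
        * ((A ⊓ V : Subgroup P) : Set P) := by
      intro v hv
      have h1 : v ∈ (Q ⊔ A) ⊓ Subgroup.centralizer ((Q ⊓ A : Subgroup P) : Set P) :=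
        ⟨hVle hv, hVc hv⟩
      rw [hcent] at h1
      have h2 : v ∈ ((Subgroup.centralizer (Q : Set P) ⊔ A : Subgroup P) : Set P) := h1
      rw [hprod] at h2
      obtain ⟨z, hz, c, hc, rfl⟩ := h2
      refine Set.mul_mem_mul hz ⟨hc, ?_⟩
      have h3 : c = z⁻¹ * (z * c) := by group
      show c ∈ V
      rw [h3]
      exact V.mul_mem (V.inv_mem (hCQV hz)) hv
    have hle : Nat.card ↥V ≤ Nat.card (((Subgroup.centralizer (Q : Set P) : Subgroup P) : Set P)
        * ((A ⊓ V : Subgroup P) : Set P) : Set P) :=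
      Nat.card_mono (Set.toFinite _) hsub
    have heq := card_mul_card_inf (Subgroup.centralizer (Q : Set P)) (A ⊓ V)
    have hinf : Subgroup.centralizer (Q : Set P) ⊓ (A ⊓ V) = Subgroup.centralizer (Q : Set P) ⊓ A := by
      rw [inf_comm A V, ← inf_assoc, inf_eq_left.mpr hCQV]
    rw [hinf] at heq
    calc Nat.card ↥V * Nat.card ↥(Subgroup.centralizer (Q : Set P) ⊓ A)
        ≤ Nat.card (((Subgroup.centralizer (Q : Set P) : Subgroup P) : Set P)
          * ((A ⊓ V : Subgroup P) : Set P) : Set P)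
          * Nat.card ↥(Subgroup.centralizer (Q : Set P) ⊓ A) := Nat.mul_le_mul_right _ hle
      _ = _ := heq
  -- (2)
  have h2 : Nat.card ↥(A ⊓ Q) * Nat.card ↥(Subgroup.centralizer (Q : Set P))
      ≤ Nat.card ↥A * Nat.card ↥(Subgroup.centralizer (Q : Set P) ⊓ A) := by
    have ha := card_mul_card_le (A ⊓ Q) (Subgroup.centralizer (Q : Set P))
    have hb : Nat.card ↥((A ⊓ Q) ⊔ Subgroup.centralizer (Q : Set P)) ≤ Nat.card ↥A := hA.2 _ hB.1
    have hc : Nat.card ↥((A ⊓ Q) ⊓ Subgroup.centralizer (Q : Set P))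
        ≤ Nat.card ↥(Subgroup.centralizer (Q : Set P) ⊓ A) :=
      Subgroup.card_le_of_le (le_inf inf_le_right (inf_le_left.trans inf_le_left))
    exact ha.trans (Nat.mul_le_mul hb hc)
  -- (3)
  have h3 := card_mul_card_le A U
  -- (4)
  have h4 : Nat.card ↥(A ⊓ U) ≤ Nat.card ↥(A ⊓ Q) :=
    Subgroup.card_le_of_le (inf_le_inf_left A hUQ)
  -- (5)
  have h5 : Nat.card ↥(A ⊔ U) ≤ Nat.card ↥(Subgroup.centralizer ((A ⊓ V : Subgroup P) : Set P)) := by
    apply Subgroup.card_le_of_le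
    apply sup_le
    · exact hAc.trans (cln_centralizer_anti inf_le_left)
    · rw [hU]; exact cln_centralizer_anti inf_le_right
  have hmax : Nat.card ↥V * Nat.card ↥U = Cfsg.maxCentralizerProduct P := by
    rw [hU]; exact hV
  have hpa : 0 < Nat.card ↥A := Nat.card_pos
  have hpy : 0 < Nat.card ↥(Subgroup.centralizer (Q : Set P) ⊓ A) := Nat.card_pos
  have key : Nat.card ↥V * Nat.card ↥U
      * (Nat.card ↥A * Nat.card ↥(Subgroup.centralizer (Q : Set P) ⊓ A))
      ≤ Nat.card ↥(A ⊓ V) * Nat.card ↥(Subgroup.centralizer ((A ⊓ V : Subgroup P) : Set P))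
      * (Nat.card ↥A * Nat.card ↥(Subgroup.centralizer (Q : Set P) ⊓ A)) := by
    calc Nat.card ↥V * Nat.card ↥U
          * (Nat.card ↥A * Nat.card ↥(Subgroup.centralizer (Q : Set P) ⊓ A))
        = (Nat.card ↥V * Nat.card ↥(Subgroup.centralizer (Q : Set P) ⊓ A))
          * (Nat.card ↥A * Nat.card ↥U) := by ring
      _ ≤ (Nat.card ↥(Subgroup.centralizer (Q : Set P)) * Nat.card ↥(A ⊓ V))
          * (Nat.card ↥(A ⊔ U) * Nat.card ↥(A ⊓ U)) := Nat.mul_le_mul h1 h3
      _ ≤ (Nat.card ↥(Subgroup.centralizer (Q : Set P)) * Nat.card ↥(A ⊓ V))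
          * (Nat.card ↥(A ⊔ U) * Nat.card ↥(A ⊓ Q)) :=
          Nat.mul_le_mul_left _ (Nat.mul_le_mul_left _ h4)
      _ = Nat.card ↥(A ⊓ V) * Nat.card ↥(A ⊔ U)
          * (Nat.card ↥(A ⊓ Q) * Nat.card ↥(Subgroup.centralizer (Q : Set P))) := by ring
      _ ≤ Nat.card ↥(A ⊓ V) * Nat.card ↥(A ⊔ U)
          * (Nat.card ↥A * Nat.card ↥(Subgroup.centralizer (Q : Set P) ⊓ A)) :=
          Nat.mul_le_mul_left _ h2
      _ ≤ Nat.card ↥(A ⊓ V) * Nat.card ↥(Subgroup.centralizer ((A ⊓ V : Subgroup P) : Set P))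
          * (Nat.card ↥A * Nat.card ↥(Subgroup.centralizer (Q : Set P) ⊓ A)) :=
          Nat.mul_le_mul_right _ (Nat.mul_le_mul_left _ h5)
  have hge := Nat.le_of_mul_le_mul_right key (Nat.mul_pos hpa hpy)
  unfold Cfsg.IsCentralizerLarge
  exact le_antisymm (measure_le_max (A ⊓ V)) (hmax ▸ hge)

/-- The key step: if `K` is centrally large and has no proper centrally large subgroup normalized
by `G = ⟨H, A⟩` (`A` large abelian normalizing `H`), then any centrally large subgroup of `K`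
normalized by `H` is `K` itself. -/
theorem cln_atom [Finite P] [Group.IsNilpotent P] (G H A K Q : Subgroup P)
    (hK : Cfsg.IsCentrallyLarge K) (hGK : G ≤ Subgroup.normalizer (K : Set P))
    (hatom : ∀ K' : Subgroup P, Cfsg.IsCentrallyLarge K' → K' ≤ K →
      G ≤ Subgroup.normalizer (K' : Set P) → K' = K)
    (hA : A ∈ Cfsg.maxAbelianSubgroups P) (hAG : A ≤ G)
    (hAH : A ≤ Subgroup.normalizer (H : Set P)) (hG : G ≤ H ⊔ A)
    (hQ : Cfsg.IsCentrallyLarge Q) (hQK : Q ≤ K)
    (hHQ : H ≤ Subgroup.normalizer (Q : Set P)) : Q = K := by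
  by_contra hne
  obtain ⟨hQ1, hQ2⟩ := isCentralizerLarge_of_isCentrallyLarge Q hQ
  obtain ⟨hK1, hK2⟩ := isCentralizerLarge_of_isCentrallyLarge K hK
  set ℱ : Set (Subgroup P) := {E | ∃ a ∈ A, E = clnConj a Q} with hℱ
  have hℱne : ℱ.Nonempty := ⟨Q, 1, A.one_mem, (clnConj_one Q).symm⟩
  have hℱCL : ∀ E ∈ ℱ, Cfsg.IsCentrallyLarge E := by
    rintro E ⟨a, ha, rfl⟩
    exact isCentrallyLarge_clnConj a hQ
  have hℱK : ∀ E ∈ ℱ, E ≤ K := by
    rintro E ⟨a, ha, rfl⟩
    have := clnConj_mono a hQK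
    rwa [clnConj_eq_of_mem_normalizer (hGK (hAG ha))] at this
  have hℱH : ∀ E ∈ ℱ, H ≤ Subgroup.normalizer (E : Set P) := by
    rintro E ⟨a, ha, rfl⟩
    apply cln_le_normalizer
    intro h hh x hx
    rw [mem_clnConj] at hx ⊢
    have h1 : a⁻¹ * h * a ∈ H := cln_conj_mem_of_le_normalizer' hAH ha hh
    have h2 := cln_conj_mem_of_le_normalizer hHQ h1 hx
    have h3 : a⁻¹ * (h * x * h⁻¹) * a = (a⁻¹ * h * a) * (a⁻¹ * x * a) * (a⁻¹ * h * a)⁻¹ := by
      group
    rw [h3]; exact h2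
  have hstabH : ∀ g ∈ H, ∀ E ∈ ℱ, clnConj g E ∈ ℱ := by
    intro g hg E hE
    rw [clnConj_eq_of_mem_normalizer (hℱH E hE hg)]; exact hE
  have hstabA : ∀ g ∈ A, ∀ E ∈ ℱ, clnConj g E ∈ ℱ := by
    rintro g hg E ⟨a, ha, rfl⟩
    exact ⟨g * a, A.mul_mem hg ha, clnConj_mul g a Q⟩
  have hK1eq : sSup ℱ = K := by
    apply hatom
    · exact isCentrallyLarge_sSup ℱ hℱCL hℱne
    · exact sSup_le hℱK
    · exact hG.trans (sup_le (cln_le_normalizer_sSup ℱ H hstabH)
        (cln_le_normalizer_sSup ℱ A hstabA))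
  set U := sInf ℱ with hU
  have hU1 : Cfsg.IsCentralizerLarge U := isCentralizerLarge_sInf ℱ
    (fun E hE => (isCentralizerLarge_of_isCentrallyLarge E (hℱCL E hE)).1) hℱne
  have hUQ : U ≤ Q := sInf_le ⟨1, A.one_mem, (clnConj_one Q).symm⟩
  have hGU : G ≤ Subgroup.normalizer (U : Set P) :=
    hG.trans (sup_le (cln_le_normalizer_sInf ℱ H hstabH) (cln_le_normalizer_sInf ℱ A hstabA))
  set V := Subgroup.centralizer (U : Set P) with hV
  have hV1 : Cfsg.IsCentralizerLarge V := cln_centralizer_large hU1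
  have hUV : Subgroup.centralizer (V : Set P) = U := cln_double_centralizer hU1
  have hGV : G ≤ Subgroup.normalizer (V : Set P) := normalizer_le_normalizer_centralizer' hGU
  have hZKQ : Subgroup.centralizer (K : Set P) ≤ Subgroup.centralizer (Q : Set P) :=
    cln_centralizer_anti hQK
  have hZQV : Subgroup.centralizer (Q : Set P) ≤ V := cln_centralizer_anti hUQ
  have hZKU : Subgroup.centralizer (K : Set P) ≤ U := by
    apply le_sInf
    intro E hE
    exact (cln_centralizer_anti (hℱK E hE)).trans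
      (isCentralizerLarge_of_isCentrallyLarge E (hℱCL E hE)).2
  have hVK : V ≤ K := by
    have := cln_centralizer_anti hZKU
    rwa [cln_double_centralizer hK1] at this
  have hVZ : ¬ V ≤ Subgroup.centralizer (K : Set P) := by
    intro h
    have h1 : Subgroup.centralizer (Q : Set P) = Subgroup.centralizer (K : Set P) :=
      le_antisymm (hZQV.trans h) hZKQ
    apply hne
    rw [← cln_double_centralizer hQ1, ← cln_double_centralizer hK1, h1]
  obtain ⟨x, hxV, hxZ, hxG⟩ := cln_exists_fixed (Subgroup.centralizer (K : Set P)) V G hGV hVZ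
  have hAc : A ≤ Subgroup.centralizer (A : Set P) :=
    Subgroup.le_centralizer_iff_isMulCommutative.mpr hA.1
  have hQAU : Q ⊓ A ≤ U := by
    apply le_sInf
    rintro E ⟨a, ha, rfl⟩
    intro y hy
    rw [mem_clnConj]
    have hcomm : y * a = a * y := (Subgroup.mem_centralizer_iff.mp (hAc ha)) y hy.2
    have h1 : a⁻¹ * y * a = y := by
      rw [mul_assoc, hcomm, ← mul_assoc, inv_mul_cancel, one_mul]
    rw [h1]; exact hy.1
  obtain ⟨-, -, -, hcent, hprod⟩ := centrallyLarge_sup_maxAbelian Q A hQ hA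
  have hKQA : K ≤ Q ⊔ A := by
    rw [← hK1eq]
    apply sSup_le
    rintro E ⟨a, ha, rfl⟩
    intro y hy
    rw [mem_clnConj] at hy
    have h1 : a ∈ Q ⊔ A := (le_sup_right : A ≤ Q ⊔ A) ha
    have h2 : a⁻¹ * y * a ∈ Q ⊔ A := (le_sup_left : Q ≤ Q ⊔ A) hy
    have h3 : y = a * (a⁻¹ * y * a) * a⁻¹ := by group
    rw [h3]
    exact (Q ⊔ A).mul_mem ((Q ⊔ A).mul_mem h1 h2) ((Q ⊔ A).inv_mem h1)
  have hVQA : V ≤ Q ⊔ A := hVK.trans hKQA
  have hVc : V ≤ Subgroup.centralizer ((Q ⊓ A : Subgroup P) : Set P) :=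
    cln_centralizer_anti hQAU
  have hxdec : ∃ z ∈ Subgroup.centralizer (Q : Set P), ∃ c ∈ A, x = z * c := by
    have h1 : x ∈ (Q ⊔ A) ⊓ Subgroup.centralizer ((Q ⊓ A : Subgroup P) : Set P) :=
      ⟨hVQA hxV, hVc hxV⟩
    rw [hcent] at h1
    have h2 : x ∈ ((Subgroup.centralizer (Q : Set P) ⊔ A : Subgroup P) : Set P) := h1
    rw [hprod] at h2
    obtain ⟨z, hz, c, hc, rfl⟩ := h2
    exact ⟨z, hz, c, hc, rfl⟩
  obtain ⟨z, hz, c, hc, hxzc⟩ := hxdec
  have hzK : z ∈ Subgroup.centralizer (K : Set P) := by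
    have hle : sSup ℱ ≤ Subgroup.centralizer ({z} : Set P) := by
      apply sSup_le
      rintro E ⟨a, ha, rfl⟩ y hy
      rw [mem_clnConj] at hy
      rw [Subgroup.mem_centralizer_iff]
      intro w hw
      rw [Set.mem_singleton_iff] at hw
      subst hw
      have h1 : a⁻¹ * w * a ∈ Subgroup.centralizer (Q : Set P) := by
        have hxa := hxG a⁻¹ (G.inv_mem (hAG ha))
        rw [commutatorElement_def] at hxa
        have hca : c * a = a * c := (Subgroup.mem_centralizer_iff.mp (hAc ha)) c hc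
        have h2 : a⁻¹ * w * a = (x * a⁻¹ * x⁻¹ * a⁻¹⁻¹)⁻¹ * w := by
          rw [hxzc]
          have e1 : (w * c * a⁻¹ * (w * c)⁻¹ * a⁻¹⁻¹)⁻¹ * w = a⁻¹ * w * (c * a) * c⁻¹ := by group
          rw [e1, hca]; group
        rw [h2]
        exact (Subgroup.centralizer (Q : Set P)).mul_mem
          ((Subgroup.centralizer (Q : Set P)).inv_mem (hZKQ hxa)) hz
      have h3 := (Subgroup.mem_centralizer_iff.mp h1) _ hy
      have h4 : w * y = a * ((a⁻¹ * w * a) * (a⁻¹ * y * a)) * a⁻¹ := by group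
      rw [h4, ← h3]; group
    rw [hK1eq] at hle
    rw [Subgroup.mem_centralizer_iff]
    intro y hy
    have := hle hy
    rw [Subgroup.mem_centralizer_iff] at this
    exact (this z rfl).symm
  have hcV : c ∈ V := by
    have h1 : c = z⁻¹ * x := by rw [hxzc]; group
    rw [h1]
    exact V.mul_mem (V.inv_mem (hZQV hz)) hxV
  have hAV : Cfsg.IsCentralizerLarge (A ⊓ V) :=
    cln_inf_large Q A U V hQ hA hV1 hUV.symm hUQ hZQV hVQA hVc
  have hZK1 : Cfsg.IsCentralizerLarge (Subgroup.centralizer (K : Set P)) :=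
    cln_centralizer_large hK1
  set Y₀ := Subgroup.centralizer (K : Set P) ⊔ (A ⊓ V) with hY₀def
  have hY₀ : Cfsg.IsCentralizerLarge Y₀ :=
    (chermak_delgado (Subgroup.centralizer (K : Set P)) (A ⊓ V) hZK1 hAV).2.1
  have hY₀c : IsMulCommutative ↥Y₀ := by
    apply isMulCommutative_sup
    · rw [← Subgroup.le_centralizer_iff_isMulCommutative]
      exact cln_centralizer_anti hK2
    · rw [← Subgroup.le_centralizer_iff_isMulCommutative]
      exact (inf_le_left.trans hAc).trans (cln_centralizer_anti inf_le_left)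
    · rw [cln_double_centralizer hK1]
      exact inf_le_right.trans hVK
  have hxY₀ : x ∈ Y₀ := by
    rw [hxzc]
    exact Y₀.mul_mem ((le_sup_left : Subgroup.centralizer (K : Set P) ≤ Y₀) hzK)
      ((le_sup_right : A ⊓ V ≤ Y₀) ⟨hc, hcV⟩)
  set 𝒴 : Set (Subgroup P) := {E | ∃ g ∈ G, E = clnConj g Y₀} with h𝒴
  have h𝒴ne : 𝒴.Nonempty := ⟨Y₀, 1, G.one_mem, (clnConj_one _).symm⟩
  set Y := sInf 𝒴 with hYdef
  have hY1 : Cfsg.IsCentralizerLarge Y := isCentralizerLarge_sInf 𝒴
    (by rintro E ⟨g, hg, rfl⟩; exact isCentralizerLarge_clnConj g hY₀) h𝒴ne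
  have hYY₀ : Y ≤ Y₀ := sInf_le ⟨1, G.one_mem, (clnConj_one _).symm⟩
  have hGY : G ≤ Subgroup.normalizer (Y : Set P) :=
    cln_le_normalizer_sInf 𝒴 G (by
      rintro g hg E ⟨g', hg', rfl⟩
      exact ⟨g * g', G.mul_mem hg hg', clnConj_mul g g' Y₀⟩)
  have hGZK : G ≤ Subgroup.normalizer
      ((Subgroup.centralizer (K : Set P) : Subgroup P) : Set P) :=
    normalizer_le_normalizer_centralizer' hGK
  have hZKY : Subgroup.centralizer (K : Set P) ≤ Y := by
    apply le_sInf
    rintro E ⟨g, hg, rfl⟩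
    have := clnConj_mono g (le_sup_left : Subgroup.centralizer (K : Set P) ≤ Y₀)
    rwa [clnConj_eq_of_mem_normalizer (hGZK hg)] at this
  have hxY : x ∈ Y := by
    rw [hYdef, Subgroup.mem_sInf]
    rintro E ⟨g, hg, rfl⟩
    rw [mem_clnConj]
    have hxg := hxG g⁻¹ (G.inv_mem hg)
    rw [commutatorElement_def] at hxg
    have h2 : g⁻¹ * x * g = (x * g⁻¹ * x⁻¹ * g⁻¹⁻¹)⁻¹ * x := by group
    rw [h2]
    exact Y₀.mul_mem (Y₀.inv_mem ((le_sup_left : Subgroup.centralizer (K : Set P) ≤ Y₀) hxg))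
      hxY₀
  have hYab : Y ≤ Subgroup.centralizer (Y : Set P) := by
    have h0 : Y₀ ≤ Subgroup.centralizer (Y₀ : Set P) :=
      Subgroup.le_centralizer_iff_isMulCommutative.mpr hY₀c
    exact hYY₀.trans (h0.trans (cln_centralizer_anti hYY₀))
  have hK'CL : Cfsg.IsCentrallyLarge (Subgroup.centralizer (Y : Set P)) := by
    apply isCentrallyLarge_of_isCentralizerLarge _ (cln_centralizer_large hY1)
    rw [cln_double_centralizer hY1]; exact hYab
  have hK'K : Subgroup.centralizer (Y : Set P) ≤ K := by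
    have := cln_centralizer_anti hZKY
    rwa [cln_double_centralizer hK1] at this
  have hK'eq := hatom _ hK'CL hK'K (normalizer_le_normalizer_centralizer' hGY)
  have hYeq : Y = Subgroup.centralizer (K : Set P) := by
    rw [← cln_double_centralizer hY1, hK'eq]
  exact hxZ (hYeq ▸ hxY)

/-- Main induction: a subgroup `G` generated by large abelian subgroups and normalizing a centrally
large subgroup `K` normalizes some minimal centrally large subgroup contained in `K`. -/
theorem cln_exists_normalized [Finite P] [Group.IsNilpotent P] :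
    ∀ (n : ℕ) (G : Subgroup P), Nat.card ↥G ≤ n → clnJ G = G →
    ∀ (m : ℕ) (K : Subgroup P), Nat.card ↥K ≤ m → Cfsg.IsCentrallyLarge K →
      G ≤ Subgroup.normalizer (K : Set P) →
      ∃ Q : Subgroup P, Cfsg.IsMinimalCentrallyLarge Q ∧ Q ≤ K ∧
        G ≤ Subgroup.normalizer (Q : Set P) := by
  intro n
  induction n with
  | zero =>
    intro G hGn
    have : 0 < Nat.card ↥G := Nat.card_pos
    omega
  | succ n ihn =>
    intro G hGn hGJ m
    induction m with
    | zero =>
      intro K hKm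
      have : 0 < Nat.card ↥K := Nat.card_pos
      omega
    | succ m ihm =>
      intro K hKm hK hGK
      by_cases hex : ∃ K' : Subgroup P, Cfsg.IsCentrallyLarge K' ∧ K' ≤ K ∧ K' ≠ K ∧
          G ≤ Subgroup.normalizer (K' : Set P)
      · obtain ⟨K', hK', hK'K, hK'ne, hGK'⟩ := hex
        have hcard : Nat.card ↥K' ≤ m := by
          by_contra hcon
          have h1 : Nat.card ↥K ≤ Nat.card ↥K' := by omega
          exact hK'ne (Subgroup.eq_of_le_of_card_ge hK'K h1)
        obtain ⟨Q, hQ, hQK', hGQ⟩ := ihm K' hcard hK' hGK'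
        exact ⟨Q, hQ, hQK'.trans hK'K, hGQ⟩
      · have hatom : ∀ K' : Subgroup P, Cfsg.IsCentrallyLarge K' → K' ≤ K →
            G ≤ Subgroup.normalizer (K' : Set P) → K' = K := by
          intro K' h1 h2 h3
          by_contra h4
          exact hex ⟨K', h1, h2, h4, h3⟩
        by_cases hGbot : G = ⊥
        · obtain ⟨R, hRK, hR⟩ := exists_isMinimalCentrallyLarge_le K hK
          refine ⟨R, hR, hRK, ?_⟩
          rw [hGbot]; exact bot_le
        · have hbotmem : (⊥ : Subgroup P) ∈ {H : Subgroup P | clnJ H = H ∧ H ≤ G ∧ H ≠ G ∧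
              G ≤ Subgroup.normalizer (H : Set P)} := by
            refine ⟨clnJ_bot, bot_le, Ne.symm hGbot, ?_⟩
            apply cln_le_normalizer
            intro g _ x hx
            rw [Subgroup.mem_bot] at hx ⊢
            rw [hx]; group
          obtain ⟨H, ⟨hHJ, hHG, hHne, hGH⟩, hmax⟩ := Set.exists_max_image
            {H : Subgroup P | clnJ H = H ∧ H ≤ G ∧ H ≠ G ∧ G ≤ Subgroup.normalizer (H : Set P)}
            (fun H : Subgroup P => Nat.card ↥H) (Set.toFinite _) ⟨⊥, hbotmem⟩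
          have hexA : ∃ A ∈ Cfsg.maxAbelianSubgroups P, A ≤ G ∧ ¬ A ≤ H := by
            by_contra hcon
            push Not at hcon
            apply hHne
            apply le_antisymm hHG
            rw [← hGJ]
            exact sSup_le (fun B hB => hcon B hB.1 hB.2)
          obtain ⟨A, hA, hAG, hAH⟩ := hexA
          have hHA : H ⊔ A = G := by
            by_contra hne
            obtain ⟨M, hLM, hMG, hMne, hGM⟩ :=
              cln_exists_normal_proper (H ⊔ A) G (sup_le hHG hAG) hne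
            have hJne : clnJ M ≠ G := by
              intro h
              apply hMne
              apply le_antisymm hMG
              rw [← h]; exact clnJ_le M
            have h1 := hmax (clnJ M) ⟨clnJ_idem M, (clnJ_le M).trans hMG, hJne,
              clnJ_normalizer hGM⟩
            have h2 : H ≤ clnJ M := by
              rw [← hHJ]; exact clnJ_mono (le_sup_left.trans hLM)
            have h3 : H = clnJ M := Subgroup.eq_of_le_of_card_ge h2 h1
            apply hAH
            rw [h3]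
            exact le_clnJ hA (le_sup_right.trans hLM)
          have hcardH : Nat.card ↥H ≤ n := by
            by_contra hcon
            have h1 : Nat.card ↥G ≤ Nat.card ↥H := by omega
            exact hHne (Subgroup.eq_of_le_of_card_ge hHG h1)
          obtain ⟨Q, hQmin, hQK, hHQ⟩ :=
            ihn H hcardH hHJ (Nat.card ↥K) K le_rfl hK (hHG.trans hGK)
          have hQeq : Q = K := cln_atom G H A K Q hK hGK hatom hA hAG (hAG.trans hGH)
            (by rw [hHA]) hQmin.1 hQK hHQ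
          exact ⟨Q, hQmin, hQK, by rw [hQeq]; exact hGK⟩

/-- Glauberman: in a finite `p`-group some minimal centrally large subgroup is normalized by the
Thompson subgroup `J(P)` and by `P_MCL`. -/
theorem cln_thompson_normalizes [Finite P] {p : ℕ} [Fact p.Prime] (hP : IsPGroup p P) :
    ∃ Q : Subgroup P, Cfsg.IsMinimalCentrallyLarge Q ∧
      Cfsg.thompsonSubgroupA P ≤ Subgroup.normalizer (Q : Set P) ∧
      Cfsg.minimalCentrallyLargeJoin P ≤ Subgroup.normalizer (Q : Set P) := by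
  haveI : Group.IsNilpotent P := hP.isNilpotent
  have hKCL : Cfsg.IsCentrallyLarge (Cfsg.centrallyLargeJoin P) :=
    isCentrallyLarge_centrallyLargeJoin
  have hKn : clnJ (⊤ : Subgroup P) ≤
      Subgroup.normalizer ((Cfsg.centrallyLargeJoin P : Subgroup P) : Set P) := by
    unfold Cfsg.centrallyLargeJoin
    apply cln_le_normalizer_sSup
    intro g _ E hE
    exact isCentrallyLarge_clnConj g hE
  obtain ⟨Q, hQ, -, hJQ⟩ := cln_exists_normalized (Nat.card ↥(clnJ (⊤ : Subgroup P)))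
    (clnJ (⊤ : Subgroup P)) le_rfl (clnJ_idem ⊤) (Nat.card ↥(Cfsg.centrallyLargeJoin P))
    (Cfsg.centrallyLargeJoin P) le_rfl hKCL hKn
  rw [clnJ_top] at hJQ
  refine ⟨Q, hQ, hJQ, ?_⟩
  unfold Cfsg.minimalCentrallyLargeJoin
  apply sSup_le
  intro R hR
  have hR' : Cfsg.IsMinimalCentrallyLarge R := hR
  have h1 : (R ⊓ Q) ⊔ Subgroup.centralizer (R : Set P) = R :=
    minimalCL_inf_sup_centralizer R Q hR' hQ.1
  rw [← h1]
  apply sup_le
  · exact inf_le_right.trans Subgroup.le_normalizer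
  · obtain ⟨A, hA⟩ := maxAbelian_nonempty (G := P)
    obtain ⟨-, -, hB, -, -⟩ := centrallyLarge_sup_maxAbelian R A hR'.1 hA
    have h2 : (A ⊓ R) ⊔ Subgroup.centralizer (R : Set P) ≤ Cfsg.thompsonSubgroupA P :=
      le_sSup hB
    exact (le_sup_right.trans h2).trans hJQ

end Cfsg.Agent.Lib.Helper48
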