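import Mathlib
import Cfsg.Agent.S0066

set_option autoImplicit false

namespace Cfsg.Agent.Lib.Helper48.GenZipper

open Subgroup
open scoped Pointwise
open Cfsg.Agent.Lib.Helper9
open Cfsg.Agent.S0066

variable {G : Type*} [Group G]

/-- the join of the `H`-conjugates of `A`. -/
def ncl (A H : Subgroup G) : Subgroup G := ⨆ h : H, MulAut.conj (h : G) • A

/-- `H` is generated by its own conjugates of `A`. -/
def Full (A H : Subgroup G) : Prop := A ≤ H ∧ H ≤ ncl A H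

theorem le_ncl (A H : Subgroup G) : A ≤ ncl A H := by
  have := le_iSup (fun c : H => MulAut.conj (c : G) • A) 1
  simpa [ncl] using this

theorem conj_le_ncl (A H : Subgroup G) {h : G} (hh : h ∈ H) : MulAut.conj h • A ≤ ncl A H :=
  le_iSup (fun c : H => MulAut.conj (c : G) • A) ⟨h, hh⟩

theorem ncl_le_iff (A H N : Subgroup G) : ncl A H ≤ N ↔ ∀ h ∈ H, MulAut.conj h • A ≤ N := by
  constructor
  · intro h x hx
    exact (conj_le_ncl A H hx).trans h
  · intro h
    exact iSup_le fun c => h c c.2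

theorem ncl_mono_left {A A' : Subgroup G} (H : Subgroup G) (h : A ≤ A') : ncl A H ≤ ncl A' H := by
  rw [ncl_le_iff]
  intro x hx
  exact (pointwise_smul_le_pointwise_smul_iff.mpr h).trans (conj_le_ncl A' H hx)

theorem ncl_mono_right (A : Subgroup G) {H H' : Subgroup G} (h : H ≤ H') : ncl A H ≤ ncl A H' := by
  rw [ncl_le_iff]
  intro x hx
  exact conj_le_ncl A H' (h hx)

theorem conj_smul_le_of_mem {A H : Subgroup G} (hAH : A ≤ H) {h : G} (hh : h ∈ H) :
    MulAut.conj h • A ≤ H := by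
  have h1 : MulAut.conj h • H = H := conj_smul_eq_of_mem_normalizer (le_normalizer hh)
  rw [← h1]
  exact pointwise_smul_le_pointwise_smul_iff.mpr hAH

theorem ncl_le {A H : Subgroup G} (hAH : A ≤ H) : ncl A H ≤ H := by
  rw [ncl_le_iff]
  intro x hx
  exact conj_smul_le_of_mem hAH hx

theorem conj_ncl (A H : Subgroup G) {b : G} (hb : b ∈ H) : MulAut.conj b • ncl A H = ncl A H :=
  conj_smul_iSup_conj A H b hb

theorem le_normalizer_ncl (A H : Subgroup G) : H ≤ normalizer ((ncl A H : Subgroup G) : Set G) := by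
  intro b hb
  exact mem_normalizer_iff_map_conj_eq.mpr (conj_ncl A H hb)

theorem full_self (A : Subgroup G) : Full A A := ⟨le_rfl, le_ncl A A⟩

theorem Full.eq_ncl {A H : Subgroup G} (h : Full A H) : ncl A H = H :=
  le_antisymm (ncl_le h.1) h.2

/-- transitivity of fullness. -/
theorem Full.trans {B S H : Subgroup G} (h1 : Full B S) (h2 : Full S H) : Full B H := by
  refine ⟨h1.1.trans h2.1, h2.2.trans ?_⟩
  rw [ncl_le_iff]
  intro x hx
  have h3 : S ≤ ncl B H := h1.2.trans (ncl_mono_right B h2.1)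
  calc MulAut.conj x • S ≤ MulAut.conj x • ncl B H := pointwise_smul_le_pointwise_smul_iff.mpr h3
    _ = ncl B H := conj_ncl B H hx

theorem Full.mono_left {A A' H : Subgroup G} (h : Full A H) (h1 : A ≤ A') (h2 : A' ≤ H) :
    Full A' H :=
  ⟨h2, h.2.trans (ncl_mono_left H h1)⟩

theorem full_sSup {B : Subgroup G} (S : Set (Subgroup G)) (hS : ∀ H ∈ S, Full B H)
    (hne : S.Nonempty) : Full B (sSup S) := by
  obtain ⟨H0, hH0⟩ := hne
  refine ⟨(hS H0 hH0).1.trans (le_sSup hH0), ?_⟩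
  apply sSup_le
  intro H hH
  exact (hS H hH).2.trans (ncl_mono_right B (le_sSup hH))

theorem Full.conj {A H : Subgroup G} (h : Full A H) (g : G) :
    Full (MulAut.conj g • A) (MulAut.conj g • H) := by
  refine ⟨pointwise_smul_le_pointwise_smul_iff.mpr h.1, ?_⟩
  have h1 : MulAut.conj g • H ≤ MulAut.conj g • ncl A H :=
    pointwise_smul_le_pointwise_smul_iff.mpr h.2
  refine h1.trans ?_
  unfold ncl
  rw [smul_iSup_subgroup]
  apply iSup_le
  intro c
  have h2 : g * (c : G) * g⁻¹ ∈ MulAut.conj g • H := by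
    have := smul_mem_pointwise_smul (c : G) (MulAut.conj g) H c.2
    simpa [MulAut.smul_def] using this
  have h3 := conj_le_ncl (MulAut.conj g • A) (MulAut.conj g • H) h2
  have h4 : MulAut.conj (g * (c : G) * g⁻¹) • MulAut.conj g • A
      = MulAut.conj g • MulAut.conj (c : G) • A := by
    rw [conj_smul_conj_smul, conj_smul_conj_smul]
    congr 2
    group
  rw [h4] at h3
  exact h3

theorem conj_inv_smul_conj_smul (g : G) (A : Subgroup G) :
    MulAut.conj g⁻¹ • MulAut.conj g • A = A := by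
  rw [conj_smul_conj_smul, inv_mul_cancel, map_one, one_smul]

theorem conj_smul_conj_inv_smul (g : G) (A : Subgroup G) :
    MulAut.conj g • MulAut.conj g⁻¹ • A = A := by
  rw [conj_smul_conj_smul, mul_inv_cancel, map_one, one_smul]

theorem card_conj_smul [Finite G] (g : G) (A : Subgroup G) :
    Nat.card (MulAut.conj g • A : Subgroup G) = Nat.card A :=
  Subgroup.card_map_of_injective (MulAut.conj g).injective

theorem conj_smul_top (g : G) : MulAut.conj g • (⊤ : Subgroup G) = ⊤ :=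
  conj_smul_eq_of_mem_normalizer (le_normalizer (mem_top g))

theorem conj_smul_ne_top {A : Subgroup G} (g : G) (h : A ≠ ⊤) : MulAut.conj g • A ≠ ⊤ := by
  intro h1
  apply h
  have h2 : MulAut.conj g⁻¹ • MulAut.conj g • A = MulAut.conj g⁻¹ • (⊤ : Subgroup G) := by rw [h1]
  rwa [conj_inv_smul_conj_smul, conj_smul_top] at h2

/-- the join of the proper `A`-full subgroups. -/
def Yof (A : Subgroup G) : Subgroup G := sSup {H : Subgroup G | H ≠ ⊤ ∧ Full A H}

theorem le_Yof {A H : Subgroup G} (h1 : H ≠ ⊤) (h2 : Full A H) : H ≤ Yof A :=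
  le_sSup ⟨h1, h2⟩

theorem self_le_Yof {A : Subgroup G} (h1 : A ≠ ⊤) : A ≤ Yof A := le_Yof h1 (full_self A)

theorem full_Yof {A : Subgroup G} (h1 : A ≠ ⊤) : Full A (Yof A) :=
  full_sSup _ (fun _ hH => hH.2) ⟨A, h1, full_self A⟩

theorem Yof_conj_le (g : G) (A : Subgroup G) :
    MulAut.conj g • Yof A ≤ Yof (MulAut.conj g • A) := by
  unfold Yof
  rw [smul_sSup_subgroup]
  apply iSup_le
  intro H
  apply iSup_le
  intro hH
  exact le_sSup ⟨conj_smul_ne_top g hH.1, hH.2.conj g⟩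

theorem Yof_conj (g : G) (A : Subgroup G) :
    Yof (MulAut.conj g • A) = MulAut.conj g • Yof A := by
  apply le_antisymm _ (Yof_conj_le g A)
  have h1 := Yof_conj_le g⁻¹ (MulAut.conj g • A)
  rw [conj_inv_smul_conj_smul] at h1
  have h2 := pointwise_smul_le_pointwise_smul_iff (a := MulAut.conj g) |>.mpr h1
  rwa [conj_smul_conj_inv_smul] at h2

/-- the join of the proper subgroups containing `Yof B`. -/
def home (B : Subgroup G) : Subgroup G := sSup {K : Subgroup G | K ≠ ⊤ ∧ Yof B ≤ K}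

theorem home_conj_le (g : G) (A : Subgroup G) :
    MulAut.conj g • home A ≤ home (MulAut.conj g • A) := by
  unfold home
  rw [smul_sSup_subgroup]
  apply iSup_le
  intro H
  apply iSup_le
  intro hH
  refine le_sSup ⟨conj_smul_ne_top g hH.1, ?_⟩
  rw [Yof_conj]
  exact pointwise_smul_le_pointwise_smul_iff.mpr hH.2

theorem home_conj (g : G) (A : Subgroup G) :
    home (MulAut.conj g • A) = MulAut.conj g • home A := by
  apply le_antisymm _ (home_conj_le g A)
  have h1 := home_conj_le g⁻¹ (MulAut.conj g • A)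
  rw [conj_inv_smul_conj_smul] at h1
  have h2 := pointwise_smul_le_pointwise_smul_iff (a := MulAut.conj g) |>.mpr h1
  rwa [conj_smul_conj_inv_smul] at h2


section fin
variable [Finite G]

omit [Finite G] in
theorem relSN_inf {A V L : Subgroup G} (h : RelSN A V) (hL : L ≤ V) : RelSN (A ⊓ L) L := by
  obtain ⟨n, F, hF0, hFn, hmono, hnorm, -⟩ := exists_chain_of_subgroupOf_isSubnormal h.1 h.2
  have := relSN_of_chain (fun i => F i ⊓ L) L
    (fun i j hij => inf_le_inf_right L (hmono hij)) ?_ n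
    (by simp only [hFn, inf_of_le_right hL]; exact relSN_refl L)
  · simpa only [hF0] using this
  · intro i x hx
    obtain ⟨hxF, hxL⟩ := Subgroup.mem_inf.mp hx
    have hx1 : x ∈ normalizer (F i : Set G) := hnorm i hxF
    rw [mem_normalizer_iff] at hx1 ⊢
    intro y
    rw [Subgroup.mem_inf, Subgroup.mem_inf]
    constructor
    · intro hy
      exact ⟨(hx1 y).mp hy.1, mul_mem (mul_mem hxL hy.2) (inv_mem hxL)⟩
    · intro hy
      refine ⟨(hx1 y).mpr hy.1, ?_⟩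
      have := mul_mem (mul_mem (inv_mem hxL) hy.2) hxL
      simpa [mul_assoc] using this

omit [Finite G] in
theorem Full.le_of_relSN {B S H : Subgroup G} (h : Full B H) (hBS : B ≤ S) (hS : RelSN S H) :
    H ≤ S :=
  le_of_subnormal_of_le_iSup_conj S H hS.2 hS.1 (h.mono_left hBS hS.1).2

/-- a subnormal `B`-full subgroup of `K` over `B`. -/
theorem exists_sn_full {B K : Subgroup G} (hBK : B ≤ K) :
    ∃ S, B ≤ S ∧ RelSN S K ∧ Full B S := by
  obtain ⟨S, -, hS⟩ := Finite.exists_le_minimal (p := fun S : Subgroup G => B ≤ S ∧ RelSN S K)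
    (a := K) ⟨hBK, relSN_refl K⟩
  refine ⟨S, hS.prop.1, hS.prop.2, hS.prop.1, ?_⟩
  have h1 : ncl B S ≤ S := ncl_le hS.prop.1
  have h2 : RelSN (ncl B S) K :=
    relSN_trans (relSN_step h1 (le_normalizer_ncl B S) (relSN_refl S)) hS.prop.2
  exact hS.le_of_le ⟨le_ncl B S, h2⟩ h1

theorem eq_top_of_normal_of_le {B N : Subgroup G} (hB : normalClosure (B : Set G) = ⊤)
    (hN : N.Normal) (hBN : B ≤ N) : N = ⊤ := by
  rw [eq_top_iff, ← hB]
  exact normalClosure_le_normal hBN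

theorem normalClosure_eq_top_of_le {B T : Subgroup G} (hB : normalClosure (B : Set G) = ⊤)
    (hBT : B ≤ T) : normalClosure (T : Set G) = ⊤ := by
  rw [eq_top_iff, ← hB]
  exact normalClosure_mono hBT

theorem normalClosure_conj {B : Subgroup G} (hB : normalClosure (B : Set G) = ⊤) (g : G) :
    normalClosure ((MulAut.conj g • B : Subgroup G) : Set G) = ⊤ := by
  rw [eq_top_iff, ← hB]
  apply normalClosure_le_normal
  intro b hb
  have h1 : g * b * g⁻¹ ∈ MulAut.conj g • B := by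
    have := smul_mem_pointwise_smul b (MulAut.conj g) B hb
    simpa [MulAut.smul_def] using this
  have h2 : g * b * g⁻¹ ∈ normalClosure ((MulAut.conj g • B : Subgroup G) : Set G) :=
    subset_normalClosure h1
  have h3 := (normalClosure_normal (s := ((MulAut.conj g • B : Subgroup G) : Set G))).conj_mem _ h2 g⁻¹
  simpa [mul_assoc] using h3

theorem normalizer_ne_top {B W : Subgroup G} (hB : normalClosure (B : Set G) = ⊤)
    (hBW : B ≤ W) (hW : W ≠ ⊤) : normalizer (W : Set G) ≠ ⊤ := by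
  intro h
  exact hW (eq_top_of_normal_of_le hB (normalizer_eq_top_iff.mp h) hBW)

theorem full_top {B : Subgroup G} (hB : normalClosure (B : Set G) = ⊤) : Full B ⊤ := by
  refine ⟨le_top, ?_⟩
  have h1 : (ncl B ⊤).Normal := by
    rw [← normalizer_eq_top_iff, eq_top_iff]
    exact le_normalizer_ncl B ⊤
  rw [eq_top_of_normal_of_le hB h1 (le_ncl B ⊤)]

/-- admissible subgroups of order `n`. -/
def Adm (n : ℕ) (B : Subgroup G) : Prop :=
  Nat.card B = n ∧ B ≠ ⊤ ∧ normalClosure (B : Set G) = ⊤ ∧ Yof B ≠ ⊤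

theorem Adm.conj {n : ℕ} {B : Subgroup G} (h : Adm n B) (g : G) : Adm n (MulAut.conj g • B) := by
  refine ⟨by rw [card_conj_smul]; exact h.1, conj_smul_ne_top g h.2.1, normalClosure_conj h.2.2.1 g, ?_⟩
  rw [Yof_conj]
  exact conj_smul_ne_top g h.2.2.2

theorem Adm.le_home {n : ℕ} {B : Subgroup G} (h : Adm n B) : B ≤ home B :=
  (self_le_Yof h.2.1).trans (le_sSup ⟨h.2.2.2, le_rfl⟩)

theorem Adm.home_spec {n : ℕ} {B : Subgroup G} (h : Adm n B) :
    IsCoatom (home B) ∧ Yof B ≤ home B ∧ ∀ K : Subgroup G, K ≠ ⊤ → Yof B ≤ K → K ≤ home B := by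
  have hfull := full_Yof h.2.1
  have hprop : ∀ K, Yof B ≤ K → K < ⊤ → RelSN (Yof B) K := by
    intro K hYK hK
    obtain ⟨S, hYS, hSK, hSf⟩ := exists_sn_full hYK
    have hS : S ≤ Yof B := le_Yof (ne_top_of_le_ne_top hK.ne hSK.1) (hfull.trans hSf)
    have : S = Yof B := le_antisymm hS hYS
    rwa [this] at hSK
  have hnot : ¬ RelSN (Yof B) ⊤ := by
    intro hsn
    have h1 : (⊤ : Subgroup G) ≤ Yof B :=
      (full_top h.2.2.1).le_of_relSN (self_le_Yof h.2.1) hsn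
    exact h.2.2.2 (top_le_iff.mp h1)
  obtain ⟨M, hM, hMmax⟩ := zipper ⊤ _ (Yof B) rfl le_top hprop hnot
  have hYM : Yof B ≤ M := hMmax _ le_rfl (lt_top_iff_ne_top.mpr h.2.2.2)
  have hhome : home B = M := by
    apply le_antisymm
    · apply sSup_le
      intro K hK
      exact hMmax K hK.2 (lt_top_iff_ne_top.mpr hK.1)
    · exact le_sSup ⟨hM.ne, hYM⟩
  rw [hhome]
  refine ⟨⟨hM.ne, ?_⟩, hYM, fun K hK hYK => hMmax K hYK (lt_top_iff_ne_top.mpr hK)⟩
  intro K hMK
  by_contra hK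
  exact absurd (hMmax K (hYM.trans hMK.le) (lt_top_iff_ne_top.mpr hK)) (not_le_of_gt hMK)

theorem Adm.coatom {n : ℕ} {B : Subgroup G} (h : Adm n B) : IsCoatom (home B) := h.home_spec.1

theorem coatom_eq_of_le {K₁ K₂ : Subgroup G} (h1 : IsCoatom K₁) (h2 : IsCoatom K₂) (h : K₁ ≤ K₂) :
    K₁ = K₂ := by
  by_contra hne
  exact h2.1 (h1.2 K₂ (lt_of_le_of_ne h hne))

theorem Adm.home_unique {n : ℕ} {B K : Subgroup G} (h : Adm n B) (hK : IsCoatom K)
    (hYK : Yof B ≤ K) : K = home B :=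
  coatom_eq_of_le hK h.coatom (h.home_spec.2.2 K hK.1 hYK)

theorem Adm.normalizer_le_home {n : ℕ} {B : Subgroup G} (h : Adm n B) :
    normalizer (B : Set G) ≤ home B := by
  intro m hm
  have h1 : MulAut.conj m • B = B := conj_smul_eq_of_mem_normalizer hm
  have h2 : MulAut.conj m • home B = home B := by rw [← home_conj, h1]
  have h3 : m ∈ normalizer ((home B : Subgroup G) : Set G) := mem_normalizer_iff_map_conj_eq.mpr h2
  have h4 : normalizer ((home B : Subgroup G) : Set G) ≠ ⊤ :=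
    normalizer_ne_top h.2.2.1 h.le_home h.coatom.1
  have h5 : home B = normalizer ((home B : Subgroup G) : Set G) := by
    by_contra hne
    exact h4 (h.coatom.2 _ (lt_of_le_of_ne le_normalizer hne))
  rw [h5]
  exact h3


/-- the inductive hypothesis above order `n`. -/
def IH (G : Type*) [Group G] (n : ℕ) : Prop :=
  ∀ T : Subgroup G, n < Nat.card T → T ≠ ⊤ → normalClosure (T : Set G) = ⊤ → Yof T ≠ ⊤ →
    ∀ K₁ K₂ : Subgroup G, IsCoatom K₁ → IsCoatom K₂ → T ≤ K₁ → T ≤ K₂ → K₁ = K₂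

theorem Adm.sn {n : ℕ} (ih : IH G n) {B H : Subgroup G} (hB : Adm n B) (hH : H ≠ ⊤)
    (hBH : B ≤ H) (hnot : ¬ H ≤ home B) : RelSN B H := by
  obtain ⟨S, hBS, hSH, hSf⟩ := exists_sn_full hBH
  by_cases hSB : S = B
  · rwa [hSB] at hSH
  · exfalso
    have hlt : B < S := lt_of_le_of_ne hBS (Ne.symm hSB)
    have hcard : n < Nat.card S := by rw [← hB.1]; exact card_lt_of_lt hlt
    have hStop : S ≠ ⊤ := ne_top_of_le_ne_top hH hSH.1
    have hYS : Yof S ≤ Yof B := by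
      apply sSup_le
      intro H' hH'
      exact le_Yof hH'.1 (hSf.trans hH'.2)
    have hYS' : Yof S ≠ ⊤ := fun h => hB.2.2.2 (top_le_iff.mp (h ▸ hYS))
    obtain ⟨K, hK, hHK⟩ := (eq_top_or_exists_le_coatom H).resolve_left hH
    have h1 : S ≤ home B := (le_Yof hStop hSf).trans hB.home_spec.2.1
    have h2 := ih S hcard hStop (normalClosure_eq_top_of_le hB.2.2.1 hBS) hYS' K (home B) hK
      hB.coatom (hSH.1.trans hHK) h1
    exact hnot (h2 ▸ hHK)

theorem pair_aux {n : ℕ} (ih : IH G n) {B C : Subgroup G} (hB : Adm n B) (hC : Adm n C)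
    (hT : B ⊔ C ≠ ⊤) (hCB : ¬ C ≤ home B) : Yof (B ⊔ C) ≠ ⊤ := by
  have key : ∀ H : Subgroup G, H ≠ ⊤ → Full (B ⊔ C) H → H ≤ home C ∨ H ≤ B ⊔ C := by
    intro H hH hf
    by_cases h1 : H ≤ home C
    · exact Or.inl h1
    · right
      have hBH : B ≤ H := le_sup_left.trans hf.1
      have hCH : C ≤ H := le_sup_right.trans hf.1
      have h2 : ¬ H ≤ home B := fun h => hCB (hCH.trans h)
      exact hf.le_of_relSN le_rfl (relSN_sup (hB.sn ih hH hBH h2) (hC.sn ih hH hCH h1))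
  by_cases hTC : B ⊔ C ≤ home C
  · have h3 : Yof (B ⊔ C) ≤ home C := by
      apply sSup_le
      intro H hH
      rcases key H hH.1 hH.2 with h | h
      · exact h
      · exact h.trans hTC
    exact fun h => hC.coatom.1 (top_le_iff.mp (h ▸ h3))
  · have h3 : Yof (B ⊔ C) ≤ B ⊔ C := by
      apply sSup_le
      intro H hH
      rcases key H hH.1 hH.2 with h | h
      · exact absurd (hH.2.1.trans h) hTC
      · exact h
    exact fun h => hT (top_le_iff.mp (h ▸ h3))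

/-- two distinct admissible subgroups inside two distinct maximal subgroups are mutual. -/
theorem pair {n : ℕ} (ih : IH G n) {B C K₁ K₂ : Subgroup G} (hB : Adm n B) (hC : Adm n C)
    (hne : B ≠ C) (hK₁ : IsCoatom K₁) (hK₂ : IsCoatom K₂) (hK : K₁ ≠ K₂) (h1 : B ⊔ C ≤ K₁)
    (h2 : B ⊔ C ≤ K₂) : B ≤ home C ∧ C ≤ home B ∧ home B ≠ home C := by
  have hT : B ⊔ C ≠ ⊤ := ne_top_of_le_ne_top hK₁.1 h1
  have hlt : B < B ⊔ C := by
    refine lt_of_le_of_ne le_sup_left ?_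
    intro heq
    have hCB : C ≤ B := by rw [heq]; exact le_sup_right
    exact hne (Subgroup.eq_of_le_of_card_ge hCB (by rw [hB.1, hC.1])).symm
  have hcard : n < Nat.card (B ⊔ C : Subgroup G) := by rw [← hB.1]; exact card_lt_of_lt hlt
  have hncl := normalClosure_eq_top_of_le hB.2.2.1 (le_sup_left : B ≤ B ⊔ C)
  have hY : Yof (B ⊔ C) = ⊤ := by
    by_contra hY
    exact hK (ih _ hcard hT hncl hY K₁ K₂ hK₁ hK₂ h1 h2)
  have hCB : C ≤ home B := by
    by_contra h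
    exact pair_aux ih hB hC hT h hY
  have hBC : B ≤ home C := by
    by_contra h
    have hT' : C ⊔ B ≠ ⊤ := by rwa [sup_comm]
    exact pair_aux ih hC hB hT' h (by rwa [sup_comm])
  refine ⟨hBC, hCB, ?_⟩
  intro heq
  apply hB.coatom.1
  rw [← top_le_iff, ← hY]
  apply sSup_le
  intro H hH
  by_contra hHB
  have hBH : B ≤ H := le_sup_left.trans hH.2.1
  have hCH : C ≤ H := le_sup_right.trans hH.2.1
  have h3 : H ≤ B ⊔ C := hH.2.le_of_relSN le_rfl
    (relSN_sup (hB.sn ih hH.1 hBH hHB) (hC.sn ih hH.1 hCH (by rwa [← heq])))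
  exact hHB (h3.trans (sup_le hB.le_home (heq ▸ hC.le_home)))


theorem exists_mutual {n : ℕ} (ih : IH G n) {A K : Subgroup G} (hA : Adm n A) (hK : IsCoatom K)
    (hAK : A ≤ K) (hne : K ≠ home A) :
    ∃ B, Adm n B ∧ A ≤ home B ∧ B ≤ home A ∧ home A ≠ home B := by
  have hsn : RelSN A K :=
    hA.sn ih hK.1 hAK (fun hle => hne (coatom_eq_of_le hK hA.coatom hle))
  obtain ⟨XX, hXX⟩ : ∃ XX : Set (Subgroup G), XX = {X | ∃ k ∈ K, X = MulAut.conj k • A} :=
    ⟨_, rfl⟩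
  have hmem : ∀ X, X ∈ XX ↔ ∃ k ∈ K, X = MulAut.conj k • A := by
    intro X; rw [hXX]; exact Iff.rfl
  have hS : ∀ U ∈ XX, U ≤ K ∧ (U.subgroupOf K).IsSubnormal := by
    intro U hU
    obtain ⟨k, hk, rfl⟩ := (hmem U).mp hU
    have h1 := relSN_conj k hsn
    rwa [conj_smul_eq_of_mem_normalizer (le_normalizer hk)] at h1
  have hconj : ∀ U ∈ XX, ∀ g ∈ K, MulAut.conj g • U ∈ XX := by
    intro U hU g hg
    obtain ⟨k, hk, rfl⟩ := (hmem U).mp hU
    exact (hmem _).mpr ⟨g * k, mul_mem hg hk, conj_smul_conj_smul g k A⟩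
  have hss : ({A} : Set (Subgroup G)) ⊂ XX := by
    refine ⟨?_, ?_⟩
    · intro X hX
      rw [Set.mem_singleton_iff] at hX
      rw [hX]
      exact (hmem A).mpr ⟨1, one_mem K, by simp⟩
    · intro hsub
      apply hne
      apply coatom_eq_of_le hK hA.coatom
      refine le_trans ?_ hA.normalizer_le_home
      intro k hk
      have h1 : MulAut.conj k • A ∈ ({A} : Set (Subgroup G)) := hsub ((hmem _).mpr ⟨k, hk, rfl⟩)
      rw [Set.mem_singleton_iff] at h1
      exact mem_normalizer_iff_map_conj_eq.mpr h1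
  obtain ⟨B, hBX, hBA, hBN⟩ := exists_normalizing_member K XX {A} hS hconj hss
  obtain ⟨k, hk, rfl⟩ := (hmem B).mp hBX
  rw [sSup_singleton] at hBN
  rw [Set.mem_singleton_iff] at hBA
  have hB : Adm n (MulAut.conj k • A) := hA.conj k
  have h1 : A ⊔ MulAut.conj k • A ≤ home A :=
    sup_le hA.le_home (hBN.trans hA.normalizer_le_home)
  have h2 : A ⊔ MulAut.conj k • A ≤ K := sup_le hAK (hS _ hBX).1
  have hp := pair ih hA hB (fun h => hBA h.symm) hA.coatom hK (Ne.symm hne) h1 h2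
  exact ⟨_, hB, hp.1, hp.2.1, hp.2.2⟩

/-- the admissible subgroups inside two homes. -/
def TT (n : ℕ) (A B : Subgroup G) : Set (Subgroup G) :=
  {X | Adm n X ∧ X ≤ home A ∧ X ≤ home B}

theorem TT_pair {n : ℕ} (ih : IH G n) {A B : Subgroup G} (hA : Adm n A) (hB : Adm n B)
    (hne : home A ≠ home B) {X X' : Subgroup G} (hX : X ∈ TT n A B) (hX' : X' ∈ TT n A B)
    (hXX' : X ≠ X') : X ≤ home X' ∧ X' ≤ home X ∧ home X ≠ home X' :=
  pair ih hX.1 hX'.1 hXX' hA.coatom hB.coatom hne (sup_le hX.2.1 hX'.2.1)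
    (sup_le hX.2.2 hX'.2.2)

theorem TT_le_home {n : ℕ} (ih : IH G n) {A B : Subgroup G} (hA : Adm n A) (hB : Adm n B)
    (hne : home A ≠ home B) {X X' : Subgroup G} (hX : X ∈ TT n A B) (hX' : X' ∈ TT n A B) :
    X ≤ home X' := by
  by_cases h : X = X'
  · rw [← h]; exact hX.1.le_home
  · exact (TT_pair ih hA hB hne hX hX' h).1

theorem TT_closed {n : ℕ} (ih : IH G n) {A B : Subgroup G} (hA : Adm n A) (hB : Adm n B)
    (hAB : A ≤ home B) (hBA : B ≤ home A) (hne : home A ≠ home B)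
    {C₁ C₂ X : Subgroup G} (hC₁ : C₁ ∈ TT n A B) (hC₂ : C₂ ∈ TT n A B) (hC : C₁ ≠ C₂)
    (hX : Adm n X) (hX1 : X ≤ home C₁) (hX2 : X ≤ home C₂) : X ∈ TT n A B := by
  have hh := (TT_pair ih hA hB hne hC₁ hC₂ hC).2.2
  have aux : ∀ D ∈ TT n A B, X ≤ home D := by
    intro D hD
    by_cases h : X = D
    · rw [← h]; exact hX.le_home
    · exact (pair ih hX hD.1 h hC₁.1.coatom hC₂.1.coatom hh
        (sup_le hX1 (TT_le_home ih hA hB hne hD hC₁))
        (sup_le hX2 (TT_le_home ih hA hB hne hD hC₂))).1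
  exact ⟨hX, aux A ⟨hA, hA.le_home, hAB⟩, aux B ⟨hB, hBA, hB.le_home⟩⟩


theorem main_step {n : ℕ} (ih : IH G n) {A B : Subgroup G} (hA : Adm n A) (hB : Adm n B)
    (hAB : A ≤ home B) (hBA : B ≤ home A) (hne : home A ≠ home B)
    {C H : Subgroup G} (hC : C ∈ TT n A B) (hH : IsCoatom H)
    (hNH : normalizer ((sSup (TT n A B) : Subgroup G) : Set G) ≤ H) : H = home C := by
  have hABne : A ≠ B := fun h => hne (by rw [h])
  have hA𝒯 : A ∈ TT n A B := ⟨hA, hA.le_home, hAB⟩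
  have hB𝒯 : B ∈ TT n A B := ⟨hB, hBA, hB.le_home⟩
  have T2 := @TT_pair G _ _ n ih A B hA hB hne
  have T2' := @TT_le_home G _ _ n ih A B hA hB hne
  have T3 := @TT_closed G _ _ n ih A B hA hB hAB hBA hne
  obtain ⟨W, hW⟩ : ∃ W : Subgroup G, W = sSup (TT n A B) := ⟨_, rfl⟩
  rw [← hW] at hNH
  have hWA : W ≤ home A := by rw [hW]; exact sSup_le fun X hX => hX.2.1
  have hWB : W ≤ home B := by rw [hW]; exact sSup_le fun X hX => hX.2.2
  have hWle : ∀ D ∈ TT n A B, W ≤ home D := by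
    intro D hD; rw [hW]; exact sSup_le fun X hX => T2' hX hD
  have T4 : ∀ X, Adm n X → X ≤ W → X ∈ TT n A B :=
    fun X hX hXW => ⟨hX, hXW.trans hWA, hXW.trans hWB⟩
  have hMco : IsCoatom (home C) := hC.1.coatom
  obtain ⟨M, hM⟩ : ∃ M : Subgroup G, M = home C := ⟨_, rfl⟩
  rw [← hM] at hMco ⊢
  obtain ⟨𝒯', h𝒯'⟩ : ∃ 𝒯' : Set (Subgroup G), 𝒯' = {X | X ∈ TT n A B ∧ X ≠ C} := ⟨_, rfl⟩
  have hmem' : ∀ X, X ∈ 𝒯' ↔ X ∈ TT n A B ∧ X ≠ C := by
    intro X; rw [h𝒯']; exact Iff.rfl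
  obtain ⟨W', hW'⟩ : ∃ W' : Subgroup G, W' = sSup 𝒯' := ⟨_, rfl⟩
  have hleW' : ∀ X ∈ 𝒯', X ≤ W' := by
    intro X hX; rw [hW']; exact le_sSup hX
  obtain ⟨X₀, hX₀⟩ : ∃ X₀, X₀ ∈ 𝒯' := by
    by_cases h : A = C
    · exact ⟨B, (hmem' B).mpr ⟨hB𝒯, fun hBC => hABne (h.trans hBC.symm)⟩⟩
    · exact ⟨A, (hmem' A).mpr ⟨hA𝒯, h⟩⟩
  have hX₀' := (hmem' X₀).mp hX₀
  have c1 : ∀ X ∈ 𝒯', X ≤ M ∧ (X.subgroupOf M).IsSubnormal := by
    intro X hX
    have hX' := (hmem' X).mp hX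
    have h2 := T2 hX'.1 hC hX'.2
    rw [← hM] at h2
    exact hX'.1.1.sn ih hMco.1 h2.1
      (fun hle => h2.2.2 (coatom_eq_of_le hMco hX'.1.1.coatom hle).symm)
  have hbin : ∀ X Y : Subgroup G, X ≤ M → Y ≤ M → (X.subgroupOf M).IsSubnormal →
      (Y.subgroupOf M).IsSubnormal → ((X ⊔ Y).subgroupOf M).IsSubnormal := by
    intro X Y hX hY hXs hYs
    rw [subgroupOf_sup hX hY]
    exact isSubnormal_sup hXs hYs
  have c2 : RelSN W' M := by
    rw [hW']; exact isSubnormal_sSup_subgroupOf M hbin 𝒯' c1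
  have hW'W : W' ≤ W := by
    rw [hW', hW]; exact sSup_le_sSup fun X hX => ((hmem' X).mp hX).1
  have c3 : ¬ C ≤ W' := by
    intro hCW
    have hY : Yof C ≤ M := by rw [hM]; exact hC.1.home_spec.2.1
    have h1 : RelSN (W' ⊓ Yof C) (Yof C) := relSN_inf c2 hY
    have h2 : Yof C ≤ W' ⊓ Yof C :=
      (full_Yof hC.1.2.1).le_of_relSN (le_inf hCW (self_le_Yof hC.1.2.1)) h1
    have h3 : Yof C ≤ home X₀ := (h2.trans inf_le_left).trans (hW'W.trans (hWle X₀ hX₀'.1))
    have h4 : home X₀ = home C := hC.1.home_unique hX₀'.1.1.coatom h3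
    exact (T2 hX₀'.1 hC hX₀'.2).2.2 h4
  have c4i : ∀ m ∈ normalizer (W' : Set G), ∀ X ∈ 𝒯', MulAut.conj m • X ∈ 𝒯' := by
    intro m hm X hX
    have h1 : MulAut.conj m • X ≤ W' := by
      have h2 : MulAut.conj m • W' = W' := conj_smul_eq_of_mem_normalizer hm
      rw [← h2]
      exact pointwise_smul_le_pointwise_smul_iff.mpr (hleW' X hX)
    refine (hmem' _).mpr ⟨T4 _ (((hmem' X).mp hX).1.1.conj m) (h1.trans hW'W), ?_⟩
    intro h
    exact c3 (h ▸ h1)
  have c4 : ∀ m ∈ normalizer (W' : Set G), m ∈ M → MulAut.conj m • C = C := by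
    intro m hm hmM
    by_contra hne'
    have hmM' : MulAut.conj m • M = M := conj_smul_eq_of_mem_normalizer (le_normalizer hmM)
    have h1 : MulAut.conj m • C ≤ home C := by
      rw [← hM, ← hmM', hM]
      exact pointwise_smul_le_pointwise_smul_iff.mpr hC.1.le_home
    have hX₁ := (hmem' _).mp (c4i m⁻¹ (inv_mem hm) X₀ hX₀)
    have h2 : MulAut.conj m • C ≤ home X₀ := by
      have h3 : C ≤ home (MulAut.conj m⁻¹ • X₀) := T2' hC hX₁.1
      have h4 := pointwise_smul_le_pointwise_smul_iff (a := MulAut.conj m) |>.mpr h3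
      rwa [← home_conj, conj_smul_conj_inv_smul] at h4
    have h5 : MulAut.conj m • C ∈ TT n A B :=
      T3 hC hX₀'.1 (Ne.symm hX₀'.2) (hC.1.conj m) h1 h2
    have h6 := (T2 h5 hC hne').2.2
    apply h6
    rw [home_conj, ← hM]
    exact hmM'
  have hW'top : W' ≠ ⊤ := ne_top_of_le_ne_top hMco.1 c2.1
  have hNW' : normalizer (W' : Set G) ≠ ⊤ :=
    normalizer_ne_top hX₀'.1.1.2.2.1 (hleW' X₀ hX₀) hW'top
  have c5 : ∀ H' : Subgroup G, IsCoatom H' → normalizer (W' : Set G) ≤ H' → H' = M := by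
    obtain ⟨𝒳, h𝒳⟩ : ∃ 𝒳 : Set (Subgroup G), 𝒳 = {X | Adm n X ∧ X ≤ M ∧ home X ≠ M} :=
      ⟨_, rfl⟩
    have hmemX : ∀ X, X ∈ 𝒳 ↔ Adm n X ∧ X ≤ M ∧ home X ≠ M := by
      intro X; rw [h𝒳]; exact Iff.rfl
    have h𝒯𝒳 : ∀ X ∈ 𝒯', X ∈ 𝒳 := by
      intro X hX
      have hX' := (hmem' X).mp hX
      have h2 := T2 hX'.1 hC hX'.2
      rw [← hM] at h2
      exact (hmemX X).mpr ⟨hX'.1.1, h2.1, h2.2.2⟩
    have h𝒳sn : ∀ U ∈ 𝒳, U ≤ M ∧ (U.subgroupOf M).IsSubnormal := by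
      intro U hU
      have hU' := (hmemX U).mp hU
      exact hU'.1.sn ih hMco.1 hU'.2.1
        (fun hle => hU'.2.2 (coatom_eq_of_le hMco hU'.1.coatom hle).symm)
    have h𝒳conj : ∀ U ∈ 𝒳, ∀ g ∈ M, MulAut.conj g • U ∈ 𝒳 := by
      intro U hU g hg
      have hU' := (hmemX U).mp hU
      have hgM : MulAut.conj g • M = M := conj_smul_eq_of_mem_normalizer (le_normalizer hg)
      refine (hmemX _).mpr ⟨hU'.1.conj g, ?_, ?_⟩
      · rw [← hgM]; exact pointwise_smul_le_pointwise_smul_iff.mpr hU'.2.1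
      · rw [home_conj]
        intro h
        apply hU'.2.2
        have h' : MulAut.conj g • home U = MulAut.conj g • M := by rw [h, hgM]
        exact smul_left_cancel _ h'
    obtain ⟨S₀, hS₀⟩ : ∃ S₀ : Set (Subgroup G), S₀ = {X | X ∈ 𝒳 ∧ X ≤ W'} := ⟨_, rfl⟩
    have hmemS : ∀ X, X ∈ S₀ ↔ X ∈ 𝒳 ∧ X ≤ W' := by
      intro X; rw [hS₀]; exact Iff.rfl
    have hS₀sup : sSup S₀ = W' := by
      apply le_antisymm (sSup_le fun X hX => ((hmemS X).mp hX).2)
      rw [hW']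
      exact sSup_le_sSup fun X hX => (hmemS X).mpr ⟨h𝒯𝒳 X hX, hleW' X hX⟩
    intro H' hH' hNH'
    by_cases hall : ∀ X ∈ 𝒳, X ≤ W'
    · have hMN : M ≤ normalizer (W' : Set G) := by
        intro m hm
        apply mem_normalizer_of_conj_le
        rw [hW', smul_sSup_subgroup, ← hW']
        apply iSup_le; intro X; apply iSup_le; intro hX
        exact hall _ (h𝒳conj X (h𝒯𝒳 X hX) m hm)
      exact (coatom_eq_of_le hMco hH' (hMN.trans hNH')).symm
    · push Not at hall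
      obtain ⟨X₂, hX₂, hX₂W⟩ := hall
      have hss : S₀ ⊂ 𝒳 :=
        ⟨fun X hX => ((hmemS X).mp hX).1, fun hsub => hX₂W ((hmemS X₂).mp (hsub hX₂)).2⟩
      obtain ⟨X₁, hX₁, hX₁S, hX₁N⟩ := exists_normalizing_member M 𝒳 S₀ h𝒳sn h𝒳conj hss
      rw [hS₀sup] at hX₁N
      have hX₁' := (hmemX X₁).mp hX₁
      have hX₁W : ¬ X₁ ≤ W' := fun h => hX₁S ((hmemS X₁).mpr ⟨hX₁, h⟩)
      have hX₀X₁ : X₀ ≠ X₁ := fun h => hX₁W (h ▸ hleW' X₀ hX₀)
      by_contra hH'M
      have hle1 : X₀ ⊔ X₁ ≤ M := sup_le ((hmemX X₀).mp (h𝒯𝒳 X₀ hX₀)).2.1 hX₁'.2.1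
      have hle2 : X₀ ⊔ X₁ ≤ H' :=
        (sup_le ((hleW' X₀ hX₀).trans le_normalizer) hX₁N).trans hNH'
      have hp := pair ih hX₀'.1.1 hX₁'.1 hX₀X₁ hMco hH' (Ne.symm hH'M) hle1 hle2
      have h7 : X₁ ∈ TT n A B :=
        T3 hC hX₀'.1 (Ne.symm hX₀'.2) hX₁'.1 (by rw [← hM]; exact hX₁'.2.1) hp.2.1
      have h8 : X₁ ∈ 𝒯' := (hmem' X₁).mpr ⟨h7, fun h => hX₁'.2.2 (by rw [h, hM])⟩
      exact hX₁W (hleW' X₁ h8)
  have c5b : normalizer (W' : Set G) ≤ M := by
    obtain ⟨H', hH', hNH'⟩ :=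
      (eq_top_or_exists_le_coatom (normalizer (W' : Set G))).resolve_left hNW'
    rw [← c5 H' hH' hNH']; exact hNH'
  have c6 : normalizer (W' : Set G) ≤ normalizer (W : Set G) := by
    intro m hm
    apply mem_normalizer_of_conj_le
    rw [hW, smul_sSup_subgroup, ← hW]
    apply iSup_le; intro X; apply iSup_le; intro hX
    by_cases hXC : X = C
    · rw [hXC, c4 m hm (c5b hm), hW]; exact le_sSup hC
    · exact (hleW' _ (c4i m hm X ((hmem' X).mpr ⟨hX, hXC⟩))).trans hW'W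
  exact c5 H hH (c6.trans hNH)

theorem no_mutual {n : ℕ} (ih : IH G n) {A B : Subgroup G} (hA : Adm n A) (hB : Adm n B)
    (hAB : A ≤ home B) (hBA : B ≤ home A) (hne : home A ≠ home B) : False := by
  have hA𝒯 : A ∈ TT n A B := ⟨hA, hA.le_home, hAB⟩
  have hB𝒯 : B ∈ TT n A B := ⟨hB, hBA, hB.le_home⟩
  have hWA : sSup (TT n A B) ≤ home A := sSup_le fun X hX => hX.2.1
  have hNW : normalizer ((sSup (TT n A B) : Subgroup G) : Set G) ≠ ⊤ :=
    normalizer_ne_top hA.2.2.1 (le_sSup hA𝒯) (ne_top_of_le_ne_top hA.coatom.1 hWA)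
  obtain ⟨H, hH, hNH⟩ := (eq_top_or_exists_le_coatom _).resolve_left hNW
  exact hne ((main_step ih hA hB hAB hBA hne hA𝒯 hH hNH).symm.trans
    (main_step ih hA hB hAB hBA hne hB𝒯 hH hNH))

theorem unique_coatom_aux : ∀ (k : ℕ) (A : Subgroup G), Nat.card G - Nat.card A = k → A ≠ ⊤ →
    normalClosure (A : Set G) = ⊤ → Yof A ≠ ⊤ →
    ∀ K₁ K₂ : Subgroup G, IsCoatom K₁ → IsCoatom K₂ → A ≤ K₁ → A ≤ K₂ → K₁ = K₂ := by
  intro k
  induction k using Nat.strong_induction_on with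
  | _ k ih =>
    intro A hk hAtop hAcl hAY K₁ K₂ hK₁ hK₂ h1 h2
    have hIH : IH G (Nat.card A) := by
      intro T hT hTtop hTcl hTY
      have hle : Nat.card T ≤ Nat.card G := Subgroup.card_le_card_group T
      exact ih (Nat.card G - Nat.card T) (by omega) T rfl hTtop hTcl hTY
    have hA : Adm (Nat.card A) A := ⟨rfl, hAtop, hAcl, hAY⟩
    have key : ∀ K, IsCoatom K → A ≤ K → K = home A := by
      intro K hK hAK
      by_contra hne
      obtain ⟨B, hB, hAB, hBA, hh⟩ := exists_mutual hIH hA hK hAK hne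
      exact no_mutual hIH hA hB hAB hBA hh
    rw [key K₁ hK₁ h1, key K₂ hK₂ h2]

/-- Generalized zipper lemma: if the proper `A`-full subgroups do not generate `G`
and the normal closure of `A` is `G`, then `A` lies in at most one maximal subgroup. -/
theorem unique_coatom {A : Subgroup G} (hAtop : A ≠ ⊤) (hAcl : normalClosure (A : Set G) = ⊤)
    (hAY : Yof A ≠ ⊤) (K₁ K₂ : Subgroup G) (hK₁ : IsCoatom K₁) (hK₂ : IsCoatom K₂)
    (h1 : A ≤ K₁) (h2 : A ≤ K₂) : K₁ = K₂ :=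
  unique_coatom_aux _ A rfl hAtop hAcl hAY K₁ K₂ hK₁ hK₂ h1 h2

end fin

theorem full_iff_normalClosure {A H : Subgroup G} (hAH : A ≤ H) :
    Subgroup.normalClosure ((A.subgroupOf H : Subgroup ↥H) : Set ↥H) = ⊤ ↔ Full A H := by
  constructor
  · intro h
    refine ⟨hAH, ?_⟩
    have hn : ((ncl A H).subgroupOf H).Normal :=
      (normal_subgroupOf_iff_le_normalizer (ncl_le hAH)).mpr (le_normalizer_ncl A H)
    have h1 : Subgroup.normalClosure ((A.subgroupOf H : Subgroup ↥H) : Set ↥H)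
        ≤ (ncl A H).subgroupOf H := by
      apply normalClosure_le_normal
      intro x hx
      exact le_ncl A H hx
    rw [h, top_le_iff] at h1
    exact subgroupOf_eq_top.mp h1
  · intro h
    rw [eq_top_iff]
    have hle : ncl A H ≤
        (Subgroup.normalClosure ((A.subgroupOf H : Subgroup ↥H) : Set ↥H)).map H.subtype := by
      rw [ncl_le_iff]
      intro c hc
      rintro x ⟨y, hy, rfl⟩
      have hy' : (⟨y, hAH hy⟩ : H) ∈
          Subgroup.normalClosure ((A.subgroupOf H : Subgroup ↥H) : Set ↥H) :=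
        subset_normalClosure (by simpa [mem_subgroupOf] using hy)
      refine ⟨⟨c, hc⟩ * ⟨y, hAH hy⟩ * ⟨c, hc⟩⁻¹, normalClosure_normal.conj_mem _ hy' _, ?_⟩
      simp [MulAut.smul_def]
    intro x _
    obtain ⟨y, hy, hyx⟩ := hle (h.2 x.2)
    have : y = x := Subtype.ext hyx
    rwa [← this]

end Cfsg.Agent.Lib.Helper48.GenZipper
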