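import Mathlib
import Cfsg.Agent.Lib.Helper48.GenZipper

set_option autoImplicit false

namespace Cfsg.Agent.Lib.Helper48.IterComm

open Subgroup
open scoped Pointwise
open Cfsg.Agent.Lib.Helper9
open Cfsg.Agent.S0066
open Cfsg.Agent.Lib.Helper48.GenZipper

universe u

/-- the map `b ↦ b a b⁻¹`. -/
def tau {Γ : Type*} [Group Γ] (a : Γ) (b : Γ) : Γ := b * a * b⁻¹

theorem tau_self {Γ : Type*} [Group Γ] (a : Γ) : tau a a = a := by simp [tau]

theorem tau_iter_self {Γ : Type*} [Group Γ] (a : Γ) (k : ℕ) : (tau a)^[k] a = a :=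
  Function.iterate_fixed (tau_self a) k

theorem tau_iter_coe {Γ : Type*} [Group Γ] (H : Subgroup Γ) (a' : H) (k : ℕ) :
    ∀ h : H, (((tau a')^[k] h : H) : Γ) = (tau (a' : Γ))^[k] (h : Γ) := by
  induction k with
  | zero => intro h; rfl
  | succ k ih =>
    intro h
    rw [Function.iterate_succ_apply, Function.iterate_succ_apply, ih]
    rfl

theorem engel_aux : ∀ (n : ℕ) (Γ : Type u) [Group Γ] [Finite Γ], Nat.card Γ = n → ∀ a : Γ,
    normalClosure ((zpowers a : Subgroup Γ) : Set Γ) = ⊤ → ∀ k : ℕ,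
    closure (Set.range ((tau a)^[k])) = ⊤ := by
  intro n
  induction n using Nat.strong_induction_on with
  | _ n ih =>
    intro Γ _ _ hn a hcl k
    by_contra hL
    obtain ⟨L, hLdef⟩ : ∃ L : Subgroup Γ, L = closure (Set.range ((tau a)^[k])) := ⟨_, rfl⟩
    rw [← hLdef] at hL
    have haL : a ∈ L := by rw [hLdef]; exact subset_closure ⟨a, tau_iter_self a k⟩
    have hAL : zpowers a ≤ L := (zpowers_le).mpr haL
    have hAtop : zpowers a ≠ ⊤ := fun h => hL (top_le_iff.mp (h ▸ hAL))
    have h1 : ∀ H : Subgroup Γ, H ≠ ⊤ → Full (zpowers a) H → H ≤ L := by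
      intro H hH hf
      have haH : a ∈ H := hf.1 (mem_zpowers a)
      have hcard : Nat.card H < n := by
        rw [← hn, ← Subgroup.card_top (G := Γ)]
        exact card_lt_of_lt (lt_top_iff_ne_top.mpr hH)
      have hnc := (full_iff_normalClosure hf.1).mpr hf
      have hz : (zpowers a).subgroupOf H = zpowers (⟨a, haH⟩ : H) := by
        ext x
        rw [mem_subgroupOf, mem_zpowers_iff, mem_zpowers_iff]
        constructor
        · rintro ⟨i, hi⟩
          exact ⟨i, Subtype.ext (by simpa using hi)⟩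
        · rintro ⟨i, hi⟩
          exact ⟨i, by rw [← hi]; simp⟩
      rw [hz] at hnc
      have h2 := ih _ hcard H rfl ⟨a, haH⟩ hnc k
      intro x hx
      have hx' : (⟨x, hx⟩ : H) ∈ closure (Set.range ((tau (⟨a, haH⟩ : H))^[k])) := by
        rw [h2]; trivial
      have hmap : (closure (Set.range ((tau (⟨a, haH⟩ : H))^[k]))).map H.subtype ≤ L := by
        rw [MonoidHom.map_closure, hLdef]
        apply Subgroup.closure_mono
        rintro _ ⟨_, ⟨h, rfl⟩, rfl⟩
        exact ⟨(h : Γ), (tau_iter_coe H ⟨a, haH⟩ k h).symm⟩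
      exact hmap ⟨⟨x, hx⟩, hx', rfl⟩
    have hY : Yof (zpowers a) ≠ ⊤ := by
      intro h
      apply hL
      rw [← top_le_iff, ← h]
      exact sSup_le fun H hH => h1 H hH.1 hH.2
    obtain ⟨M, hM, hAM⟩ := (eq_top_or_exists_le_coatom (zpowers a)).resolve_left hAtop
    have h2 : ∀ K : Subgroup Γ, K ≠ ⊤ → zpowers a ≤ K → K ≤ M := by
      intro K hK hAK
      obtain ⟨K', hK', hKK'⟩ := (eq_top_or_exists_le_coatom K).resolve_left hK
      rw [← unique_coatom hAtop hcl hY K' M hK' hM (hAK.trans hKK') hAM]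
      exact hKK'
    have h3 : normalizer (M : Set Γ) ≤ M :=
      h2 _ (normalizer_ne_top hcl hAM hM.1) (hAM.trans le_normalizer)
    have h4 : ∀ g : Γ, g ∉ M → tau a g ∉ M := by
      intro g hg htau
      apply hg
      have h5 : zpowers a ≤ MulAut.conj g⁻¹ • M := by
        rw [zpowers_le]
        have h6 := smul_mem_pointwise_smul (tau a g) (MulAut.conj g⁻¹) M htau
        simpa [MulAut.smul_def, tau, mul_assoc] using h6
      have h6 : MulAut.conj g⁻¹ • M ≤ M := h2 _ (conj_smul_ne_top g⁻¹ hM.1) h5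
      have h7 : g⁻¹ ∈ M := h3 (mem_normalizer_of_conj_le h6)
      simpa using inv_mem h7
    obtain ⟨g, hg⟩ : ∃ g : Γ, g ∉ M := by
      by_contra h
      push Not at h
      exact hM.1 (eq_top_iff.mpr fun x _ => h x)
    have h5 : ∀ j : ℕ, (tau a)^[j] g ∉ M := by
      intro j
      induction j with
      | zero => simpa using hg
      | succ j ihj => rw [Function.iterate_succ_apply']; exact h4 _ ihj
    exact h5 k (h2 L hL hAL (by rw [hLdef]; exact subset_closure ⟨g, rfl⟩))

/-- If the conjugates of `a` generate the finite group, then so do the values of each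
iterate of `b ↦ b a b⁻¹`. -/
theorem engel_gen {Γ : Type u} [Group Γ] [Finite Γ] (a : Γ)
    (hcl : normalClosure ((zpowers a : Subgroup Γ) : Set Γ) = ⊤) (k : ℕ) :
    closure (Set.range ((tau a)^[k])) = ⊤ :=
  engel_aux _ Γ rfl a hcl k

end Cfsg.Agent.Lib.Helper48.IterComm
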